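import Cfsg.Agent.Lib.BG.Basic
import Cfsg.Agent.Lib.Coprime.Generation
import Mathlib.LinearAlgebra.Matrix.GeneralLinearGroup.Card
import Mathlib.RepresentationTheory.Invariants

/-!
# Elements of order three with a single Jordan block of size three: linear algebra
-/

set_option autoImplicit false

namespace Cfsg.Lib.Jb3

open Subgroup Module Cfsg.Lib.BG Cfsg.Lib.Core

variable {G : Type*} [Group G] {E : Type*} [AddCommGroup E] [Module (ZMod 3) E]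
  {ρ : Representation (ZMod 3) G E}

/-- The commutator space of `g`. -/
def U (ρ : Representation (ZMod 3) G E) (g : G) : Submodule (ZMod 3) E :=
  LinearMap.range (ρ g - 1)

theorem mem_U (g : G) (x : E) : ρ g x - x ∈ U ρ g := ⟨x, rfl⟩

theorem U_le {g : G} {W : Submodule (ZMod 3) E} : U ρ g ≤ W ↔ ∀ x, ρ g x - x ∈ W :=
  ⟨fun h x => h (mem_U g x), fun h => by rintro _ ⟨x, rfl⟩; exact h x⟩

theorem mul_ap (g h : G) (x : E) : ρ (g * h) x = ρ g (ρ h x) := by rw [map_mul]; rfl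

theorem one_ap (x : E) : ρ 1 x = x := by rw [map_one]; rfl

theorem inv_ap (g : G) (x : E) : ρ g⁻¹ (ρ g x) = x := by rw [← mul_ap, inv_mul_cancel, one_ap]

theorem ap_inv (g : G) (x : E) : ρ g (ρ g⁻¹ x) = x := by rw [← mul_ap, mul_inv_cancel, one_ap]

theorem ap_inj (g : G) {x y : E} (h : ρ g x = ρ g y) : x = y := by
  rw [← inv_ap (ρ := ρ) g x, h, inv_ap]

theorem ap_zero {g : G} {x : E} (h : ρ g x = 0) : x = 0 := ap_inj g (h.trans (map_zero _).symm)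

theorem t3 (x : E) : x + x + x = 0 := by
  have : (1 + 1 + 1 : ZMod 3) • x = 0 := by rw [show (1 + 1 + 1 : ZMod 3) = 0 from rfl, zero_smul]
  simpa [add_smul] using this

theorem eq_neg_self {x : E} (h : x = -x) : x = 0 := by
  linear_combination (norm := abel) t3 x - h

/-- The elements whose commutator space lies in `W`. -/
def inU (ρ : Representation (ZMod 3) G E) (W : Submodule (ZMod 3) E) : Subgroup G where
  carrier := {g | U ρ g ≤ W}
  one_mem' := U_le.2 fun x => by simp [one_ap]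
  mul_mem' := fun {g h} hg hh => U_le.2 fun x => by
    have := W.add_mem (U_le.1 hg (ρ h x)) (U_le.1 hh x)
    rwa [sub_add_sub_cancel, ← mul_ap] at this
  inv_mem' := fun {g} hg => U_le.2 fun x => by
    have := W.neg_mem (U_le.1 hg (ρ g⁻¹ x))
    rwa [ap_inv, neg_sub] at this

theorem mem_inU {g : G} {W : Submodule (ZMod 3) E} : g ∈ inU ρ W ↔ U ρ g ≤ W := Iff.rfl

/-- The pointwise stabilizer of `W`. -/
def fixes (ρ : Representation (ZMod 3) G E) (W : Set E) : Subgroup G where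
  carrier := {g | ∀ x ∈ W, ρ g x = x}
  one_mem' := fun x _ => one_ap x
  mul_mem' := fun {g h} hg hh x hx => by rw [mul_ap, hh x hx, hg x hx]
  inv_mem' := fun {g} hg x hx => ap_inj g (by rw [ap_inv, hg x hx])

theorem U_conj (g h : G) : U ρ (g * h * g⁻¹) = (U ρ h).map (ρ g) := by
  refine le_antisymm (U_le.2 fun x => ⟨_, mem_U h (ρ g⁻¹ x), ?_⟩) ?_
  · rw [map_sub, ap_inv, mul_ap, mul_ap]
  · rintro _ ⟨_, ⟨x, rfl⟩, rfl⟩
    exact ⟨ρ g x, by simp [mul_ap, inv_ap]⟩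

variable [Finite E]

/-- The dimension of the commutator space. -/
noncomputable def rk (ρ : Representation (ZMod 3) G E) (g : G) : ℕ := finrank (ZMod 3) (U ρ g)

theorem rk_conj_le (g h : G) : rk ρ (g * h * g⁻¹) ≤ rk ρ h := by
  rw [rk, U_conj]; exact Submodule.finrank_map_le _ _

theorem finrank_sup_le (W W' : Submodule (ZMod 3) E) {m n : ℕ} (h : finrank (ZMod 3) W ≤ m)
    (h' : finrank (ZMod 3) W' ≤ n) : finrank (ZMod 3) ↥(W ⊔ W') ≤ m + n :=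
  (Submodule.finrank_add_le_finrank_add_finrank W W').trans (add_le_add h h')

theorem finrank_span_one (x : E) : finrank (ZMod 3) (Submodule.span (ZMod 3) {x}) ≤ 1 :=
  (finrank_span_le_card _).trans (by simp)

theorem finrank_span_two (x y : E) : finrank (ZMod 3) (Submodule.span (ZMod 3) {x, y}) ≤ 2 := by
  rw [Submodule.span_insert]
  exact finrank_sup_le _ _ (finrank_span_one x) (finrank_span_one y)

theorem card_units (W : Submodule (ZMod 3) E) : Nat.card (W →ₗ[ZMod 3] W)ˣ =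
    ∏ i : Fin (finrank (ZMod 3) W), (3 ^ finrank (ZMod 3) W - 3 ^ (i : ℕ)) := by
  have := Matrix.card_GL_field (𝔽 := ZMod 3) (finrank (ZMod 3) W)
  rw [ZMod.card] at this
  rw [← this]
  exact Nat.card_congr (Matrix.GeneralLinearGroup.toLin' (finBasis (ZMod 3) W)).symm.toEquiv

theorem index_dvd (H : Subgroup G) (W : Submodule (ZMod 3) E)
    (h : ∀ g ∈ H, ∀ x ∈ W, ρ g x ∈ W) : (fixes ρ W).relIndex H ∣ Nat.card (W →ₗ[ZMod 3] W)ˣ := by
  let σ := Representation.subrepresentation (ρ.comp H.subtype) W fun g x hx => h g g.2 x hx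
  have : σ.asGroupHom.ker = (fixes ρ W).subgroupOf H := by
    ext g
    rw [MonoidHom.mem_ker, Units.ext_iff, LinearMap.ext_iff]
    exact ⟨fun h x hx => congrArg Subtype.val (h ⟨x, hx⟩), fun h x => Subtype.ext (h x x.2)⟩
  rw [relIndex, ← this, index_ker]
  exact card_subgroup_dvd_card _

theorem small [Finite G] {g : G} (hg : (orderOf g).Coprime 6) {W : Submodule (ZMod 3) E}
    (hW : finrank (ZMod 3) W ≤ 2) (h : ∀ x ∈ W, ρ g x ∈ W) : ∀ x ∈ W, ρ g x = x := by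
  have h1 := index_dvd (ρ := ρ) (zpowers g) W (fun k hk => by
    obtain ⟨n, rfl⟩ := (Submonoid.mem_powers_iff _ _).1 (mem_powers_iff_mem_zpowers.2 hk)
    intro x hx
    clear hk
    induction n with
    | zero => rwa [pow_zero, one_ap]
    | succ n ih => rw [pow_succ', mul_ap]; exact h _ ih)
  have h2 : Nat.card (W →ₗ[ZMod 3] W)ˣ ∣ 6 ^ 4 := by
    rw [card_units]
    generalize finrank (ZMod 3) W = n at hW
    interval_cases n <;> decide
  have h3 : (fixes ρ W).relIndex (zpowers g) ∣ orderOf g :=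
    Nat.card_zpowers g ▸ Subgroup.relIndex_dvd_card _ _
  exact relIndex_eq_one.1 (Nat.eq_one_of_dvd_coprimes (hg.pow_right 4) h3 (h1.trans h2))
    (mem_zpowers g)

theorem eq_one_of_rk [Finite G] (hρ : Function.Injective ρ) {g : G} (hg : (orderOf g).Coprime 6)
    {W : Submodule (ZMod 3) E} (hW : finrank (ZMod 3) W ≤ 2) (h : U ρ g ≤ W) : g = 1 := by
  have h1 := small (ρ := ρ) hg hW fun x hx => by simpa using W.add_mem (U_le.1 h x) hx
  have h2 : g ^ 3 = 1 := hρ (LinearMap.ext fun x => by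
    have a1 := h1 _ (U_le.1 h x)
    have a2 := congrArg (ρ g) a1
    simp only [map_sub] at a1 a2
    rw [one_ap, pow_succ, sq, mul_ap, mul_ap]
    linear_combination (norm := abel) a2 + a1 + a1 + t3 (ρ g x - x))
  exact orderOf_eq_one_iff.1 (Nat.eq_one_of_dvd_coprimes hg dvd_rfl
    ((orderOf_dvd_of_pow_eq_one h2).trans (by decide)))

/-- A four-group `{1, v, b v b⁻¹, v * (b v b⁻¹)}` permuted by `b`. -/
structure V4 (b v : G) : Prop where
  b3 : b * b * b = 1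
  ne : v ≠ 1
  sq : v * v = 1
  cm : v * (b * v * b⁻¹) = b * v * b⁻¹ * v
  pr : b * (b * v * b⁻¹) * b⁻¹ = v * (b * v * b⁻¹)

/-- The frame attached to a four-group. -/
structure Fr (ρ : Representation (ZMod 3) G E) (b v : G) (e : E) : Prop extends V4 b v where
  e0 : e ≠ 0
  h1 : ρ v e = e
  h2 : ρ (b * v * b⁻¹) e = -e
  l1 : ∀ x, ρ v x = x → ρ (b * v * b⁻¹) x = -x → ∃ c : ZMod 3, x = c • e
  c0 : ∀ x, ρ v x = x → ρ (b * v * b⁻¹) x = x → ρ b x = x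

variable {b v : G} {e : E}

theorem V4.binv (h : V4 b v) : b⁻¹ = b * b := inv_eq_of_mul_eq_one_left h.b3

theorem V4.rot (h : V4 b v) : V4 b (b * v * b⁻¹) where
  b3 := h.b3
  ne := fun e => h.ne (by simpa using e)
  sq := by simp [conj_mul, h.sq]
  cm := by rw [conj_mul, h.cm, ← conj_mul]
  pr := by rw [conj_mul, ← h.pr]

theorem V4.conj (h : V4 b v) (g : G) : V4 (g * b * g⁻¹) (g * v * g⁻¹) := by
  have e1 : ∀ k : G, g * b * g⁻¹ * (g * k * g⁻¹) * (g * b * g⁻¹)⁻¹ = g * (b * k * b⁻¹) * g⁻¹ :=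
    fun k => by group
  refine ⟨?_, fun e => h.ne (by simpa using e), ?_, ?_, ?_⟩
  · rw [conj_mul, conj_mul, h.b3, mul_one, mul_inv_cancel]
  · rw [conj_mul, h.sq, mul_one, mul_inv_cancel]
  · rw [e1, conj_mul, conj_mul, h.cm]
  · rw [e1, e1, conj_mul, h.pr]

theorem V4.three (h : V4 b v) : b * (b * (b * v * b⁻¹) * b⁻¹) * b⁻¹ = v := by
  calc _ = (b * b * b) * v * (b * b * b)⁻¹ := by group
    _ = v := by simp [h.b3]

omit [Finite E] in
/-- The action of the four-group on `ρ b x`. -/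
theorem V4.act (h : V4 b v) (x : E) : ρ v (ρ b x) = ρ b (ρ v (ρ (b * v * b⁻¹) x)) ∧
    ρ (b * v * b⁻¹) (ρ b x) = ρ b (ρ v x) := by
  constructor
  · rw [← mul_ap, ← mul_ap, ← mul_ap, mul_assoc b v, ← h.pr]
    congr 2
    exact (mul_inv_eq_iff_eq_mul.1 h.three).symm
  · simp [mul_ap, inv_ap]

omit [Finite E] in
theorem V4.dec (h : V4 b v) (x : E) : ∃ x₀ x₁ x₂ x₃ : E, x = x₀ + x₁ + x₂ + x₃ ∧
    (ρ v x₀ = x₀ ∧ ρ (b * v * b⁻¹) x₀ = x₀) ∧ (ρ v x₁ = x₁ ∧ ρ (b * v * b⁻¹) x₁ = -x₁) ∧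
    (ρ v x₂ = -x₂ ∧ ρ (b * v * b⁻¹) x₂ = x₂) ∧ (ρ v x₃ = -x₃ ∧ ρ (b * v * b⁻¹) x₃ = -x₃) := by
  have a1 : ∀ y, ρ v (ρ v y) = y := fun y => by rw [← mul_ap, h.sq, one_ap]
  have a2 : ∀ y, ρ (b * v * b⁻¹) (ρ (b * v * b⁻¹) y) = y := fun y => by
    rw [← mul_ap, h.rot.sq, one_ap]
  have a3 : ∀ y, ρ (b * v * b⁻¹) (ρ v y) = ρ v (ρ (b * v * b⁻¹) y) := fun y => by
    rw [← mul_ap, ← h.cm, mul_ap]
  generalize b * v * b⁻¹ = w at *
  refine ⟨x + ρ v x + ρ w x + ρ v (ρ w x), x + ρ v x - ρ w x - ρ v (ρ w x),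
    x - ρ v x + ρ w x - ρ v (ρ w x), x - ρ v x - ρ w x + ρ v (ρ w x), ?_, ⟨?_, ?_⟩, ⟨?_, ?_⟩,
    ⟨?_, ?_⟩, ?_, ?_⟩
  · linear_combination (norm := abel) - t3 x
  all_goals simp only [map_add, map_sub, a1, a2, a3]; abel

theorem V4.exists_fr (h : V4 b v) (hρ : Function.Injective ρ) (hb : rk ρ b ≤ 2) :
    ∃ e, Fr ρ b v e := by
  obtain ⟨e, e0, h1, h2⟩ : ∃ e : E, e ≠ 0 ∧ ρ v e = e ∧ ρ (b * v * b⁻¹) e = -e := by
    by_contra hc
    push Not at hc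
    have c1 : ∀ x, ρ v x = x → ρ (b * v * b⁻¹) x = -x → x = 0 := fun x a b =>
      not_not.1 fun c => hc x c a b
    refine h.ne (hρ (LinearMap.ext fun x => ?_))
    obtain ⟨x₀, x₁, x₂, x₃, rfl, a0, a1, a2, a3⟩ := h.dec (ρ := ρ) x
    have b3 : x₃ = 0 := ap_zero (c1 (ρ b x₃) (by simp only [h.act, a3, map_neg, neg_neg])
      (by simp only [h.act, a3, map_neg]))
    have b2 : x₂ = 0 := ap_zero (ap_zero (c1 (ρ b (ρ b x₂)) (by simp only [h.act, a2, map_neg, neg_neg])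
      (by simp only [h.act, a2, map_neg, neg_neg])))
    simp [one_ap, b3, b2, a0, a1]
  have key : ∀ x₀ x₁, ρ v x₀ = x₀ → ρ (b * v * b⁻¹) x₀ = x₀ → ρ v x₁ = x₁ →
      ρ (b * v * b⁻¹) x₁ = -x₁ → ρ b x₀ = x₀ ∧ ∃ c : ZMod 3, x₁ = c • e := by
    intro x₀ x₁ a1 a2 a3 a4
    have hd : ¬ LinearIndependent (ZMod 3) (![⟨_, mem_U b e⟩, ⟨_, mem_U b (ρ b e)⟩,
        ⟨_, mem_U b (x₀ + x₁)⟩] : Fin 3 → U ρ b) := fun hi => by
      have := hi.fintype_card_le_finrank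
      rw [Fintype.card_fin] at this
      exact absurd (this.trans hb) (by decide)
    obtain ⟨c, hc, i, hi⟩ := Fintype.not_linearIndependent_iff.1 hd
    have d0 := congrArg Subtype.val hc
    simp only [Fin.sum_univ_three, Matrix.cons_val, Submodule.coe_add, Submodule.coe_smul,
      Submodule.coe_zero, map_add, smul_sub, smul_add] at d0
    have d1 := congrArg (ρ v) d0
    have d2 := congrArg (ρ (b * v * b⁻¹)) d0
    have d3 := congrArg (ρ v) d2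
    simp only [map_add, map_sub, map_smul, map_neg, map_zero, h.act, h1, h2, a1, a2, a3, a4,
      neg_neg, smul_neg] at d1 d2 d3
    have f3 : c 1 • ρ b (ρ b e) = 0 := by
      linear_combination (norm := abel) d0 - d1 - d2 + d3 - t3 (c 1 • ρ b (ρ b e))
    have f1 : c 0 • e + c 2 • x₁ = 0 := by
      linear_combination (norm := abel) - d0 - d1 + d2 + d3 - t3 (c 0 • e + c 2 • x₁)
    have f0 : c 2 • ρ b x₀ - c 2 • x₀ = 0 := by
      linear_combination (norm := abel) d0 + d1 + d2 + d3 - t3 (c 2 • ρ b x₀ - c 2 • x₀)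
    have g1 : c 1 = 0 := (smul_eq_zero.1 f3).resolve_right fun e => e0 (ap_zero (ap_zero e))
    have g2 : c 2 ≠ 0 := fun e => by
      have g0 : c 0 = 0 := by simpa [e, e0] using f1
      fin_cases i <;> simp_all
    refine ⟨smul_right_injective _ g2 (sub_eq_zero.1 f0), -((c 2)⁻¹ * c 0), ?_⟩
    refine smul_right_injective _ g2 ?_
    simp only [smul_smul]
    rw [mul_neg, mul_inv_cancel_left₀ g2, neg_smul]
    exact eq_neg_of_add_eq_zero_right f1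
  exact ⟨e, h, e0, h1, h2, fun x a b => (key 0 x (map_zero _) (map_zero _) a b).2,
    fun x a b => (key x 0 a b (map_zero _) (by simp)).1⟩

omit [Finite E]

theorem Fr.bbb (h : Fr ρ b v e) (x : E) : ρ b (ρ b (ρ b x)) = x := by
  rw [← mul_ap, ← mul_ap, h.b3, one_ap]

theorem Fr.conj (h : Fr ρ b v e) (g : G) : Fr ρ (g * b * g⁻¹) (g * v * g⁻¹) (ρ g e) := by
  have e1 : g * b * g⁻¹ * (g * v * g⁻¹) * (g * b * g⁻¹)⁻¹ = g * (b * v * b⁻¹) * g⁻¹ := by group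
  have e2 : ∀ (k : G) (x : E), ρ (g * k * g⁻¹) x = ρ g (ρ k (ρ g⁻¹ x)) := fun k x => by
    rw [mul_ap, mul_ap]
  refine ⟨h.toV4.conj g, fun e => h.e0 (ap_zero e), ?_, ?_, fun x a b => ?_, fun x a b => ?_⟩
  · rw [e2, inv_ap, h.h1]
  · rw [e1, e2, inv_ap, h.h2, map_neg]
  · rw [e1] at b
    rw [e2] at a b
    obtain ⟨c, hc⟩ := h.l1 (ρ g⁻¹ x) (ap_inj g (by rw [a, ap_inv]))
      (ap_inj g (by rw [b, map_neg, ap_inv]))
    exact ⟨c, by rw [← map_smul, ← hc, ap_inv]⟩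
  · rw [e1] at b
    rw [e2] at a b
    rw [e2, h.c0 (ρ g⁻¹ x) (ap_inj g (by rw [a, ap_inv])) (ap_inj g (by rw [b, ap_inv])), ap_inv]

theorem Fr.rot (h : Fr ρ b v e) : Fr ρ b (b * v * b⁻¹) (ρ b e) := by
  simpa using h.conj b

theorem Fr.l2 (h : Fr ρ b v e) {x : E} (h1 : ρ v x = -x) (h2 : ρ (b * v * b⁻¹) x = x) :
    ∃ c : ZMod 3, x = c • ρ b e :=
  h.rot.l1 x h2 (by rw [h.pr, mul_ap, h2, h1])

theorem Fr.l3 (h : Fr ρ b v e) {x : E} (h1 : ρ v x = -x) (h2 : ρ (b * v * b⁻¹) x = -x) :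
    ∃ c : ZMod 3, x = c • ρ b (ρ b e) :=
  h.rot.rot.l1 x (by rw [h.pr, mul_ap, h2, map_neg, h1, neg_neg]) (by rw [h.three, h1])

theorem Fr.dec (h : Fr ρ b v e) (x : E) : ∃ (x₀ : E) (c₁ c₂ c₃ : ZMod 3),
    x = x₀ + c₁ • e + c₂ • ρ b e + c₃ • ρ b (ρ b e) ∧ ρ v x₀ = x₀ ∧ ρ (b * v * b⁻¹) x₀ = x₀ := by
  obtain ⟨x₀, x₁, x₂, x₃, rfl, a0, a1, a2, a3⟩ := h.toV4.dec (ρ := ρ) x
  obtain ⟨c₁, rfl⟩ := h.l1 x₁ a1.1 a1.2
  obtain ⟨c₂, rfl⟩ := h.l2 a2.1 a2.2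
  obtain ⟨c₃, rfl⟩ := h.l3 a3.1 a3.2
  exact ⟨x₀, c₁, c₂, c₃, rfl, a0⟩

/-- The action of `v` and its conjugate on the frame. -/
theorem Fr.tab (h : Fr ρ b v e) : ρ v (ρ b e) = -ρ b e ∧ ρ (b * v * b⁻¹) (ρ b e) = ρ b e ∧
    ρ v (ρ b (ρ b e)) = -ρ b (ρ b e) ∧ ρ (b * v * b⁻¹) (ρ b (ρ b e)) = -ρ b (ρ b e) := by
  simp only [h.act, h.h1, h.h2, map_neg, neg_neg, and_self]

theorem Fr.neg_mem (h : Fr ρ b v e) {x : E} (hx : ρ v x = -x) :
    x ∈ Submodule.span (ZMod 3) {ρ b e, ρ b (ρ b e)} := by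
  obtain ⟨x₀, x₁, x₂, x₃, rfl, a0, a1, a2, a3⟩ := h.toV4.dec (ρ := ρ) x
  obtain ⟨c₂, rfl⟩ := h.l2 a2.1 a2.2
  obtain ⟨c₃, rfl⟩ := h.l3 a3.1 a3.2
  have : x₀ + x₁ = 0 := eq_neg_self (by
    rw [map_add, map_add, map_add, a0.1, a1.1, a2.1, a3.1] at hx
    linear_combination (norm := abel) hx)
  rw [this, zero_add]
  exact Submodule.mem_span_pair.2 ⟨_, _, rfl⟩

theorem Fr.Uv (h : Fr ρ b v e) : U ρ v ≤ Submodule.span (ZMod 3) {ρ b e, ρ b (ρ b e)} :=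
  U_le.2 fun x => h.neg_mem (by rw [map_sub, ← mul_ap, h.sq, one_ap, neg_sub])

theorem Fr.rkv [Finite E] (h : Fr ρ b v e) : rk ρ v ≤ 2 :=
  (Submodule.finrank_mono h.Uv).trans (finrank_span_two _ _)

theorem Fr.Ub (h : Fr ρ b v e) {W : Submodule (ZMod 3) E} (h1 : e ∈ W) (h2 : ρ b e ∈ W)
    (h3 : ρ b (ρ b e) ∈ W) : U ρ b ≤ W := U_le.2 fun x => by
  obtain ⟨x₀, c₁, c₂, c₃, rfl, a1, a2⟩ := h.dec x
  have := W.add_mem (W.add_mem (W.smul_mem c₁ (W.sub_mem h2 h1)) (W.smul_mem c₂ (W.sub_mem h3 h2)))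
    (W.smul_mem c₃ (W.sub_mem h1 h3))
  simp only [map_add, map_smul, h.c0 x₀ a1 a2, h.bbb]
  convert this using 1
  simp only [smul_sub]
  abel

theorem Fr.nsm (h : Fr ρ b v e) (c : ZMod 3) : ρ b e ≠ c • e := fun hc => by
  have := h.tab.1
  rw [hc, map_smul, h.h1, ← hc] at this
  exact h.e0 (ap_zero (eq_neg_self this))

end Cfsg.Lib.Jb3
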