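import Cfsg.Agent.Lib.Jb3.Mono

/-!
# Elements of order three with a single Jordan block of size three: four lines
-/

set_option autoImplicit false

namespace Cfsg.Lib.Jb3

open Subgroup Module Cfsg.Lib.BG Cfsg.Lib.Core
open scoped commutatorElement

variable {G : Type*} [Group G] {E : Type*} [AddCommGroup E] [Module (ZMod 3) E]
  {ρ : Representation (ZMod 3) G E} {b v : G} {e : E} {R : Subgroup G} [Finite G] [Finite E]

/-- The normal four-subgroup of the symmetric group of degree four. -/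
abbrev Kl (σ : Equiv.Perm (Fin 4)) : Prop := σ * σ = 1 ∧ ∀ i, σ i = i → σ = 1

/-- The product of two monomial matrices. -/
abbrev mm (σ τ : Equiv.Perm (Fin 4)) (c d : Fin 4 → ZMod 3) :
    Equiv.Perm (Fin 4) × (Fin 4 → ZMod 3) := (σ * τ, fun i => c (τ i) * d i)

theorem dec1 : ∀ σ : Equiv.Perm (Fin 4), σ ^ 4 = 1 →
    (σ * List.formPerm [0, 1, 2] * σ⁻¹ * (List.formPerm [0, 1, 2])⁻¹) ^ 4 = 1 → Kl σ := by
  decide +kernel

set_option synthInstance.maxSize 2000 in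
set_option synthInstance.maxHeartbeats 200000 in
theorem dec2 : ∀ σ, Kl σ → σ ≠ 1 → ∀ τ, Kl τ → τ = 1 ∨ τ = σ ∨
    τ = List.formPerm [0, 1, 2] * σ * (List.formPerm [0, 1, 2])⁻¹ ∨
    τ = σ * (List.formPerm [0, 1, 2] * σ * (List.formPerm [0, 1, 2])⁻¹) := by
  decide +kernel

theorem dec3 : ∀ t : Fin 4 → ZMod 3, ∏ i, t i = 1 → t 3 = -1 → ∀ c : Fin 4 → ZMod 3,
    ∏ i, c i = 1 → ∃ i j k : Fin 2,
      c = ![1, -1, -1, 1] ^ (i : ℕ) * ![-1, 1, -1, 1] ^ (j : ℕ) * t ^ (k : ℕ) := by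
  decide +kernel

set_option synthInstance.maxSize 2000 in
set_option synthInstance.maxHeartbeats 200000 in
theorem dec4 : ∀ σ, Kl σ → ∀ c : Fin 4 → ZMod 3, ∏ i, c i = 1 →
    (mm σ σ c c = (1, 1) ∨ mm σ σ c c = (1, -1)) ∧
    ((∀ τ, Kl τ → ∀ d : Fin 4 → ZMod 3, ∏ i, d i = 1 → mm σ τ c d = mm τ σ d c) →
      (σ, c) = (1, 1) ∨ (σ, c) = (1, -1)) ∧
    ∀ τ, Kl τ → ∀ d : Fin 4 → ZMod 3, ∏ i, d i = 1 →
      mm σ τ c d = mm τ σ d c ∨ mm σ τ c d = mm τ σ (-d) c := by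
  decide +kernel

theorem dec5 : Fintype.card {σ // Kl σ} = 4 ∧
    Fintype.card {c : Fin 4 → ZMod 3 // ∏ i, c i = 1} = 8 := by
  decide +kernel

theorem Mo.case4 (h : Mo ρ R b v e) {g : G} (hg : ¬ Sp ρ b e (ρ g e)) :
    IsExtraspecial 2 R ∧ Nat.card R = 32 ∧
      ∃ A ≤ R, IsElementaryAbelian 2 A ∧ Nat.card A = 8 := by
  obtain ⟨i1, i2, i3, i4, i5, i6⟩ := h.ind
  have hf := (h.dich g).resolve_left hg
  obtain ⟨f1, f2⟩ := (h.dich' g).resolve_left hg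
  have g0 : ¬ Ln (ρ g e) e := fun l => hg (Or.inl l)
  have g1 : ¬ Ln (ρ g e) (ρ b e) := fun l => hg (Or.inr (Or.inl l))
  have g2 : ¬ Ln (ρ g e) (ρ b (ρ b e)) := fun l => hg (Or.inr (Or.inr l))
  have g3 : ¬ Ln e (ρ g e) := fun l => g0 (l.symm h.fr.e0)
  have g4 : ¬ Ln (ρ b e) (ρ g e) := fun l => g1 (l.symm (h.ne0 b))
  have g5 : ¬ Ln (ρ b (ρ b e)) (ρ g e) := fun l => g2 (l.symm h.rot.rot.fr.e0)
  have hx : ∀ i : Fin 4, ∃ k, ![e, ρ b e, ρ b (ρ b e), ρ g e] i = ρ k e := fun i => by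
    fin_cases i
    exacts [⟨1, (one_ap _).symm⟩, ⟨b, rfl⟩, ⟨b * b, (mul_ap _ _ _).symm⟩, ⟨g, rfl⟩]
  obtain ⟨π, s, -, s0, sm, sp, inj, u⟩ := h.data (I := Fin 4) _ hx
    (fun k => by
      rcases h.cover hg k with (j | j | j) | j
      exacts [⟨0, j⟩, ⟨1, j⟩, ⟨2, j⟩, ⟨3, j⟩])
    (fun i j l => by fin_cases i <;> fin_cases j <;> first | rfl | contradiction)
  have hb : π b = List.formPerm [0, 1, 2] := Equiv.ext fun i => by
    fin_cases i
    exacts [(u b 0 1 1 (by simp)).1, (u b 1 2 1 (by simp)).1, (u b 2 0 1 (by simp [h.fr.bbb])).1,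
      (u b 3 3 1 (by simp [hf])).1]
  have p4 := fun r => h.pow_four π (by decide +kernel) (r := r)
  have h1 : ∀ r ∈ R, Kl (π r) := fun r hr => dec1 _ (p4 r hr) (by
    have := p4 _ (h.comm_mem r)
    rwa [map_mul, map_mul, map_mul, map_inv, map_inv, hb] at this)
  have s1 : s 1 = 1 := funext fun i => (u 1 i i 1 (by rw [one_ap, one_smul])).2
  have hd : ∀ k, π (k * v * k⁻¹) = 1 := fun k => Equiv.ext fun i => by
    obtain ⟨j, hj⟩ := hx i
    obtain ⟨c, hc⟩ := h.diag k j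
    exact (u _ i i c (by rwa [hj])).1
  have cj := fun k => h.nrm.conj_mem _ h.mem k
  have sq1 : ∀ k, s k * s k = 1 := fun k => funext fun i =>
    (by decide : ∀ c : ZMod 3, c ≠ 0 → c * c = 1) _ (s0 k i)
  -- the diagonal elements
  have dg : ∀ c : Fin 4 → ZMod 3, ∏ i, c i = 1 → ∃ r ∈ R, π r = 1 ∧ s r = c := by
    let D : Submonoid (Fin 4 → ZMod 3) :=
      { carrier := {c | ∃ r ∈ R, π r = 1 ∧ s r = c}
        one_mem' := ⟨1, one_mem _, map_one _, s1⟩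
        mul_mem' := by
          rintro _ _ ⟨r, hr, a, rfl⟩ ⟨k, hk, c, rfl⟩
          exact ⟨r * k, mul_mem hr hk, by rw [map_mul, a, c, one_mul],
            funext fun i => by rw [sm, c]; rfl⟩ }
    obtain ⟨t1, t2, t3, t4⟩ := h.fr.tab
    have d1 : ![1, -1, -1, 1] ∈ D := ⟨v, h.mem, by simpa using hd 1, funext fun i => by
      fin_cases i
      exacts [(u v 0 0 _ (by simp [h.fr.h1])).2, (u v 1 1 _ (by simp [t1])).2,
        (u v 2 2 _ (by simp [t3])).2, (u v 3 3 _ (by simp [f1])).2]⟩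
    have t6 := h.fr.h2
    have d2 : ![-1, 1, -1, 1] ∈ D := ⟨_, cj b, hd b, funext fun i => by
      generalize b * v * b⁻¹ = w at *
      fin_cases i
      exacts [(u w 0 0 _ (by simp [t6])).2, (u w 1 1 _ (by simp [t2])).2,
        (u w 2 2 _ (by simp [t4])).2, (u w 3 3 _ (by simp [f2])).2]⟩
    intro c hc
    obtain ⟨i, j, k, rfl⟩ := dec3 _ (sp _ (cj (g * b))) (u _ 3 3 _ (by
      change ρ _ (ρ g e) = -1 • ρ g e
      rw [← mul_ap, show g * b * v * (g * b)⁻¹ * g = g * (b * v * b⁻¹) by group, mul_ap, t6,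
        map_neg, neg_smul, one_smul])).2 c hc
    exact D.mul_mem (D.mul_mem (D.pow_mem d1 _) (D.pow_mem d2 _))
      (D.pow_mem ⟨_, cj _, hd _, rfl⟩ _)
  have pm : ∀ σ, Kl σ → ∃ r ∈ R, π r = σ := by
    obtain ⟨r, hr, a⟩ : ∃ r ∈ R, π r ≠ 1 := by
      have := (u g 0 3 1 (by simp)).1
      obtain ⟨r, hr, a⟩ := h.elt g
      refine ⟨r, hr, fun c => ?_⟩
      rcases a with rfl | rfl | rfl <;> simp only [map_mul, c, hb] at this <;> revert this <;> decide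
    have c1 := h.nrm.conj_mem _ hr b
    intro σ hσ
    rcases dec2 _ (h1 r hr) a σ hσ with rfl | rfl | rfl | rfl
    exacts [⟨1, one_mem _, map_one _⟩, ⟨r, hr, rfl⟩, ⟨_, c1, by simp [hb]⟩,
      ⟨_, mul_mem hr c1, by simp [hb]⟩]
  have sj : ∀ σ, Kl σ → ∀ c : Fin 4 → ZMod 3, ∏ i, c i = 1 → ∃ r ∈ R, π r = σ ∧ s r = c := by
    intro σ hσ c hc
    obtain ⟨r, hr, rfl⟩ := pm σ hσ
    obtain ⟨k, hk, a, d⟩ := dg (s r * c) (by simp [Finset.prod_mul_distrib, sp r hr, hc])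
    refine ⟨r * k, mul_mem hr hk, by rw [map_mul, a, mul_one], funext fun i => ?_⟩
    rw [sm, a, d, Pi.mul_apply, ← mul_assoc]
    exact (congrArg (· * c i) (congrFun (sq1 r) i)).trans (one_mul _)
  have cR : Nat.card R = 32 := by
    rw [Nat.card_congr (Equiv.ofBijective (fun r : R => ((⟨π r, h1 r r.2⟩, ⟨s r, sp r r.2⟩) :
      {σ // Kl σ} × {c : Fin 4 → ZMod 3 // ∏ i, c i = 1})) ⟨fun x y a => Subtype.ext (inj _ _
        (congrArg (·.1.1) a) (congrArg (·.2.1) a)), fun a => by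
      obtain ⟨r, hr, c, d⟩ := sj _ a.1.2 _ a.2.2
      exact ⟨⟨r, hr⟩, Prod.ext (Subtype.ext c) (Subtype.ext d)⟩⟩), Nat.card_prod,
      Nat.card_eq_fintype_card, Nat.card_eq_fintype_card, dec5.1, dec5.2]
  have inj' : ∀ x y, (π x, s x) = (π y, s y) → x = y := fun x y a =>
    inj _ _ (congrArg (·.1) a) (congrArg (·.2) a)
  have ml : ∀ x y, (π (x * y), s (x * y)) = mm (π x) (π y) (s x) (s y) := fun x y =>
    Prod.ext (map_mul _ _ _) (funext (sm x y))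
  obtain ⟨z, hz, z1, z2⟩ := dg (-1) (by decide)
  have z3 : ∀ x, (π x, s x) = (1, 1) ∨ (π x, s x) = (1, -1) → x ∈ zpowers z := by
    rintro x (a | a)
    · rw [inj' x 1 (by rw [a, map_one, s1])]
      exact one_mem _
    · rw [inj' x z (by rw [a, z1, z2])]
      exact mem_zpowers _
  haveI : Fact (Nat.Prime 2) := ⟨Nat.prime_two⟩
  have z4 : Nat.card (zpowers z) = 2 := by
    rw [Nat.card_zpowers]
    refine orderOf_eq_prime (inj' _ _ ?_) fun a => ?_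
    · rw [pow_two, ml, z1, z2, map_one, s1]; decide
    · rw [a, s1] at z2
      exact absurd z2 (by decide)
  refine ⟨ES.isExtraspecial_of_card (IsPGroup.of_card (n := 5) cR) z4 (le_antisymm ?_ (le_inf
    (zpowers_le.2 hz) (zpowers_le.2 fun x _ => inj' _ _ ?_))) (commutator_le.2 fun x hx y hy => ?_)
    (fun x hx => z3 _ ?_) fun a => ?_, cR, R ⊓ π.ker, inf_le_left, ⟨?_, fun x hx => inj' _ _ ?_⟩, ?_⟩
  · rintro x ⟨hx, hc⟩
    refine z3 x ((dec4 _ (h1 x hx) _ (sp x hx)).2.1 fun τ hτ d hd => ?_)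
    obtain ⟨r, hr, rfl, rfl⟩ := sj τ hτ d hd
    rw [← ml, ← ml, hc r hr]
  · rw [ml, ml, z1, z2]
    simp [mm]
  · rcases (dec4 _ (h1 x hx) _ (sp x hx)).2.2 _ (h1 y hy) _ (sp y hy) with a | a
    · rw [commutatorElement_eq_one_iff_mul_comm.2 (inj' _ _ (by rw [ml, ml, a]))]
      exact one_mem _
    · have : x * y = z * (y * x) := inj' _ _ (by
        rw [ml, a, ml, z1, z2, map_mul]
        simp [mm, sm])
      rw [show ⁅x, y⁆ = z by rw [commutatorElement_def, this]; group]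
      exact mem_zpowers _
  · rw [pow_two, ml]
    exact (dec4 _ (h1 x hx) _ (sp x hx)).1
  · rw [← a, cR] at z4
    exact absurd z4 (by decide)
  · refine abelian_iff.2 (le_cent_iff.2 fun x hx y hy => inj' _ _ ?_)
    rw [ml, ml, MonoidHom.mem_ker.1 (mem_inf.1 hx).2, MonoidHom.mem_ker.1 (mem_inf.1 hy).2]
    simp [mm, mul_comm]
  · rw [pow_two, ml, MonoidHom.mem_ker.1 (mem_inf.1 hx).2, map_one, s1]
    exact Prod.ext (mul_one _) (sq1 x)
  · rw [Nat.card_congr (Equiv.ofBijective (fun r : ↥(R ⊓ π.ker) => (⟨s r, sp r (mem_inf.1 r.2).1⟩ :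
      {c : Fin 4 → ZMod 3 // ∏ i, c i = 1})) ⟨fun x y a => Subtype.ext (inj _ _
        ((mem_inf.1 x.2).2.trans (mem_inf.1 y.2).2.symm) (congrArg (·.1) a)), fun a => by
      obtain ⟨r, hr, c, d⟩ := dg _ a.2
      exact ⟨⟨r, mem_inf.2 ⟨hr, c⟩⟩, Subtype.ext d⟩⟩), Nat.card_eq_fintype_card, dec5.2]

theorem St.main (h : St ρ R b) : (IsElementaryAbelian 2 R ∧ Nat.card R = 4) ∨
    (IsExtraspecial 2 R ∧ Nat.card R = 32 ∧ ∃ A ≤ R, IsElementaryAbelian 2 A ∧ Nat.card A = 8) := by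
  obtain ⟨v, hv, h1, h2⟩ := h.red
  obtain ⟨e, he⟩ := h1.exists_fr h.inj h.rkb
  have m : Mo ρ R b v e := ⟨h, he, hv, h2⟩
  by_cases hc : ∀ g, Sp ρ b e (ρ g e)
  · rw [m.case3 hc]
    exact Or.inl ⟨V4.elem _, V4.card _⟩
  · obtain ⟨g, hg⟩ := not_forall.1 hc
    exact Or.inr (m.case4 hg)

end Cfsg.Lib.Jb3
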