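import Cfsg.Agent.Lib.Jb3.Red
import Cfsg.Agent.Lib.Extraspecial.Hall

/-!
# Elements of order three with a single Jordan block of size three: the monomial action
-/

set_option autoImplicit false

namespace Cfsg.Lib.Jb3

open Subgroup Module Cfsg.Lib.BG Cfsg.Lib.Core
open scoped commutatorElement

variable {G : Type*} [Group G] {E : Type*} [AddCommGroup E] [Module (ZMod 3) E]
  {ρ : Representation (ZMod 3) G E} {b v : G} {e : E} {R : Subgroup G}

/-- `x` is a multiple of `y`. -/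
def Ln (x y : E) : Prop := ∃ c : ZMod 3, x = c • y

theorem Ln.rfl {x : E} : Ln x x := ⟨1, (one_smul _ _).symm⟩

theorem Ln.trans {x y z : E} (h : Ln x y) (h' : Ln y z) : Ln x z := by
  obtain ⟨c, rfl⟩ := h
  obtain ⟨d, rfl⟩ := h'
  exact ⟨_, smul_smul _ _ _⟩

theorem Ln.symm {x y : E} (h : Ln x y) (h0 : x ≠ 0) : Ln y x := by
  obtain ⟨c, rfl⟩ := h
  exact ⟨c⁻¹, (inv_smul_smul₀ (left_ne_zero_of_smul h0) y).symm⟩

theorem Ln.map {x y : E} (h : Ln x y) (g : G) : Ln (ρ g x) (ρ g y) := by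
  obtain ⟨c, rfl⟩ := h
  exact ⟨c, map_smul _ _ _⟩

theorem Ln.fix {x y : E} (h : Ln x y) {g : G} (hg : ρ g y = y) : ρ g x = x := by
  obtain ⟨c, rfl⟩ := h
  rw [map_smul, hg]

theorem Ln.pm {x y : E} (h : Ln x y) (h0 : x ≠ 0) : x = y ∨ x = -y := by
  obtain ⟨c, rfl⟩ := h
  rcases (by decide : ∀ c : ZMod 3, c = 0 ∨ c = 1 ∨ c = -1) c with rfl | rfl | rfl <;> simp_all

/-- `m` lies on one of the three lines through the orbit of `x` under `d`. -/
def Sp (ρ : Representation (ZMod 3) G E) (d : G) (x m : E) : Prop :=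
  Ln m x ∨ Ln m (ρ d x) ∨ Ln m (ρ d (ρ d x))

theorem Sp.ln {d : G} {x m m' : E} (h : Sp ρ d x m) (h' : Ln m' m) : Sp ρ d x m' :=
  h.imp h'.trans (Or.imp h'.trans h'.trans)

theorem Sp.step {d : G} (h3 : d * d * d = 1) {x m : E} (h : Sp ρ d x m) : Sp ρ d x (ρ d m) := by
  rcases h with h | h | h
  · exact Or.inr (Or.inl (h.map d))
  · exact Or.inr (Or.inr (h.map d))
  · have := h.map (ρ := ρ) d
    rw [← mul_ap d d, ← mul_ap, h3, one_ap] at this
    exact Or.inl this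

theorem Sp.swap {d : G} (h3 : d * d * d = 1) {x m : E} (h : Sp ρ d x m) (h0 : m ≠ 0) :
    Sp ρ d m x := by
  have e : ρ d (ρ d (ρ d x)) = x := by rw [← mul_ap d d, ← mul_ap, h3, one_ap]
  rcases h with h | h | h
  · exact Or.inl (h.symm h0)
  · exact Or.inr (Or.inr (e ▸ ((h.symm h0).map d).map d))
  · exact Or.inr (Or.inl (e ▸ (h.symm h0).map d))

theorem Sp.trans {d : G} (h3 : d * d * d = 1) {x y m : E} (h : Sp ρ d x y) (h' : Sp ρ d y m) :
    Sp ρ d x m := by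
  rcases h' with h' | h' | h'
  exacts [h.ln h', (h.step h3).ln h', ((h.step h3).step h3).ln h']

theorem Sp.conj {d : G} {x m : E} (h : Sp ρ d x m) (k : G) :
    Sp ρ (k * d * k⁻¹) (ρ k x) (ρ k m) := by
  simp only [Sp, mul_ap, inv_ap]
  exact h.imp (·.map k) (Or.imp (·.map k) (·.map k))

variable [Finite G] [Finite E]

/-- The setting with commuting conjugates. -/
structure Mo (ρ : Representation (ZMod 3) G E) (R : Subgroup G) (b v : G) (e : E) : Prop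
    extends St ρ R b where
  fr : Fr ρ b v e
  mem : v ∈ R
  ab : ∀ g, v * (g * v * g⁻¹) = g * v * g⁻¹ * v

namespace Mo

variable (h : Mo ρ R b v e)
include h

omit [Finite G] in
theorem ne0 (g : G) : ρ g e ≠ 0 := fun e => h.fr.e0 (ap_zero e)

omit [Finite G] in
theorem rot : Mo ρ R b (b * v * b⁻¹) (ρ b e) :=
  ⟨h.toSt, h.fr.rot, h.nrm.conj_mem _ h.mem b, fun g => by
    calc _ = b * (v * (b⁻¹ * g * b * v * (b⁻¹ * g * b)⁻¹)) * b⁻¹ := by group
      _ = _ := by rw [h.ab]; group⟩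

omit [Finite G] in
theorem diag (k g : G) : Ln (ρ (k * v * k⁻¹) (ρ g e)) (ρ g e) := by
  have h1 : ∀ k, Ln (ρ (k * v * k⁻¹) e) e := fun k =>
    h.fr.l1 _ (by rw [← mul_ap, h.ab, mul_ap, h.fr.h1]) (by
      have := h.rot.ab (k * b⁻¹)
      rw [show k * b⁻¹ * (b * v * b⁻¹) * (k * b⁻¹)⁻¹ = k * v * k⁻¹ by group] at this
      rw [← mul_ap, this, mul_ap, h.fr.h2, map_neg])
  have := (h1 (g⁻¹ * k)).map (ρ := ρ) g
  rwa [← mul_ap, show g * (g⁻¹ * k * v * (g⁻¹ * k)⁻¹) = k * v * k⁻¹ * g by group, mul_ap] at this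

omit [Finite G] in
theorem dich' (g : G) : Sp ρ b e (ρ g e) ∨
    (ρ v (ρ g e) = ρ g e ∧ ρ (b * v * b⁻¹) (ρ g e) = ρ g e) := by
  have h1 := (h.diag 1 g).pm fun e => h.ne0 g (ap_zero e)
  have h2 := (h.diag b g).pm fun e => h.ne0 g (ap_zero e)
  rw [one_mul, inv_one, mul_one] at h1
  rcases h1 with h1 | h1 <;> rcases h2 with h2 | h2
  exacts [Or.inr ⟨h1, h2⟩, Or.inl (Or.inl (h.fr.l1 _ h1 h2)),
    Or.inl (Or.inr (Or.inl (h.fr.l2 h1 h2))), Or.inl (Or.inr (Or.inr (h.fr.l3 h1 h2)))]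

omit [Finite G] in
theorem dich (g : G) : Sp ρ b e (ρ g e) ∨ ρ b (ρ g e) = ρ g e :=
  (h.dich' g).imp_right fun a => h.fr.c0 _ a.1 a.2

omit [Finite G] in
theorem dichk (k g : G) :
    Sp ρ (k * b * k⁻¹) (ρ k e) (ρ g e) ∨ ρ (k * b * k⁻¹) (ρ g e) = ρ g e := by
  have e1 : ρ k (ρ (k⁻¹ * g) e) = ρ g e := by rw [mul_ap, ap_inv]
  refine (h.dich (k⁻¹ * g)).imp (fun a => e1 ▸ a.conj k) fun a => ?_
  rw [mul_ap, mul_ap, ← mul_ap k⁻¹, a, e1]

theorem fix {g : G} (hg : ∀ k, ρ g (ρ k e) = ρ k e) : g = 1 := by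
  have h1 := (h.irr (N := Submodule.span (ZMod 3) (Set.range fun k => ρ k e))
    (Submodule.span_le.2 (by rintro _ ⟨k, rfl⟩; exact h.inv_F0 k (h.mem_F0 h.fr)))
    (fun k x hx => (Submodule.map_span_le (ρ k) _ _).2 (by
      rintro _ ⟨j, rfl⟩
      exact Submodule.subset_span ⟨k * j, mul_ap _ _ _⟩) ⟨x, hx, rfl⟩)).resolve_left
    fun e' => h.ne0 1 (e'.le (Submodule.subset_span ⟨1, rfl⟩))
  refine h.faith fun x hx => sub_eq_zero.1 ?_
  exact (Submodule.span_le (p := LinearMap.ker (ρ g - 1))).2 (by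
    rintro _ ⟨k, rfl⟩; exact LinearMap.mem_ker.2 (sub_eq_zero.2 (hg k))) (h1.ge hx)

theorem pair (k : G) : Sp ρ (k * b * k⁻¹) (ρ k e) (ρ b e) ∨
    Sp ρ (k * b * k⁻¹) (ρ k e) (ρ b (ρ b e)) := by
  haveI := h.nrm
  by_contra hc
  push Not at hc
  have fk := h.fr.conj k
  have dk := h.dichk k
  have hR := h.comm_mem k
  have a1 := (dk b).resolve_left hc.1
  have a2 := (dk (b * b)).resolve_left (by rw [mul_ap]; exact hc.2)
  rw [mul_ap b b] at a2
  have e0 := h.fr.e0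
  have k0 := h.ne0 k
  have a3 : ∀ g, Sp ρ (k * b * k⁻¹) (ρ k e) (ρ g e) → ¬ Ln (ρ g e) e → ρ b (ρ g e) = ρ g e :=
    fun g a c => (h.dich g).resolve_left (by
      rintro (j | j | j)
      exacts [c j, hc.1 (a.ln (j.symm (h.ne0 g))), hc.2 (a.ln (j.symm (h.ne0 g)))])
  have a0 := dk 1
  rw [one_ap] at a0
  have b3 := h.fr.bbb
  have d3 := fk.bbb
  have n1 : ∀ x, x ≠ 0 → Sp ρ (k * b * k⁻¹) (ρ k e) x → ¬ Ln (ρ (k * b * k⁻¹) x) x := by
    rintro x x0 (j | j | j) l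
    · obtain ⟨c, hc⟩ := ((j.symm x0).map (ρ := ρ) (k * b * k⁻¹)).trans (l.trans j)
      exact fk.nsm c hc
    · obtain ⟨c, hc⟩ := ((j.symm x0).map (ρ := ρ) (k * b * k⁻¹)).trans (l.trans j)
      have := fk.rot.nsm c
      exact this hc
    · obtain ⟨c, hc⟩ := ((j.symm x0).map (ρ := ρ) (k * b * k⁻¹)).trans (l.trans j)
      have := fk.rot.rot.nsm c
      exact this hc
  have d3' := fk.b3
  have he : ∀ g, ρ (k * b * k⁻¹) (ρ g e) = ρ (k * b * k⁻¹ * g) e := fun g => (mul_ap _ _ _).symm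
  generalize k * b * k⁻¹ = d at *
  by_cases hs : Sp ρ d (ρ k e) e
  · have s1 := hs.step d3'
    have s2 := s1.step d3'
    have c1 : ρ b (ρ d e) = ρ d e := a3 d s1 (n1 _ e0 hs)
    have c2 : ρ b (ρ d (ρ d e)) = ρ d (ρ d e) := by
      have := a3 (d * d) (by rwa [mul_ap]) fun l => by
        rw [mul_ap] at l
        have := l.map (ρ := ρ) d
        rw [d3] at this
        exact n1 _ e0 hs (this.symm e0)
      rwa [mul_ap] at this
    have : d * b * (d * b) * (d * b) * (d * b) * (d * b) = 1 := h.fix fun g => by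
      have f : ∀ x, Ln (ρ g e) x → ρ (d * b * (d * b) * (d * b) * (d * b) * (d * b)) x = x →
        ρ (d * b * (d * b) * (d * b) * (d * b) * (d * b)) (ρ g e) = ρ g e := fun x a c => a.fix c
      rcases h.dich g with (j | j | j) | j
      · exact f _ j (by simp only [mul_ap, a1, a2, b3, c1, c2, d3])
      · exact f _ j (by simp only [mul_ap, a1, a2, b3, c1, c2, d3])
      · exact f _ j (by simp only [mul_ap, a1, a2, b3, c1, c2, d3])
      rcases dk g with l | l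
      · rcases (hs.swap d3' e0).trans d3' l with l | l | l
        · exact f _ l (by simp only [mul_ap, a1, a2, b3, c1, c2, d3])
        · exact f _ l (by simp only [mul_ap, a1, a2, b3, c1, c2, d3])
        · exact f _ l (by simp only [mul_ap, a1, a2, b3, c1, c2, d3])
      · simp only [mul_ap, j, l]
    have q1 : (d : G ⧸ R) = b := by
      rw [← mul_inv_eq_one, ← QuotientGroup.mk_inv, ← QuotientGroup.mk_mul,
        QuotientGroup.eq_one_iff]
      exact hR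
    have q2 := congrArg (fun x : G => (x : G ⧸ R)) this
    have q3 := congrArg (fun x : G => (x : G ⧸ R)) h.b3
    simp only [QuotientGroup.mk_mul, q1, QuotientGroup.mk_one] at q2 q3
    refine h.b_not_mem ((QuotientGroup.eq_one_iff b).1 ?_)
    generalize (b : G ⧸ R) = x at *
    calc x = (x * x * x)⁻¹ ^ 3 * (x * x * (x * x) * (x * x) * (x * x) * (x * x)) := by group
      _ = 1 := by simp [q2, q3]
  · have c0 := a0.resolve_left hs
    have c1 : ∀ g, Sp ρ d (ρ k e) (ρ g e) → ρ b (ρ g e) = ρ g e := fun g a =>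
      a3 g a fun l => hs (a.ln (l.symm (h.ne0 g)))
    rw [h.fr.binv] at hR
    have : d * (b * b) = 1 := h.eq_one_of_cube hR (h.fix fun g => by
      have f : ∀ x, Ln (ρ g e) x → ρ (d * (b * b) * (d * (b * b)) * (d * (b * b))) x = x →
        ρ (d * (b * b) * (d * (b * b)) * (d * (b * b))) (ρ g e) = ρ g e := fun x a c => a.fix c
      rcases dk g with l | l
      · have l1 := l.step d3'
        have l2 := l1.step d3'
        have m0 := c1 _ l
        rw [he] at l1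
        rw [he, he] at l2
        have m1 := c1 _ l1
        have m2 := c1 _ l2
        simp only [mul_ap] at m1 m2
        simp only [mul_ap, m0, m1, m2, d3]
      rcases h.dich g with (j | j | j) | j
      · exact f _ j (by simp only [mul_ap, a1, a2, b3, c0])
      · exact f _ j (by simp only [mul_ap, a1, a2, b3, c0])
      · exact f _ j (by simp only [mul_ap, a1, a2, b3, c0])
      · simp only [mul_ap, j, l])
    rw [← h.fr.binv, mul_inv_eq_one] at this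
    exact h.fr.nsm 1 (by rw [← this, c0, one_smul])

theorem data {I : Type} [Fintype I] [DecidableEq I] (x : I → E) (h1 : ∀ i, ∃ g, x i = ρ g e)
    (h2 : ∀ g, ∃ i, Ln (ρ g e) (x i)) (h3 : ∀ i j, Ln (x i) (x j) → i = j) :
    ∃ (π : G →* Equiv.Perm I) (s : G → I → ZMod 3), (∀ g i, ρ g (x i) = s g i • x (π g i)) ∧
      (∀ g i, s g i ≠ 0) ∧ (∀ g k i, s (g * k) i = s g (π k i) * s k i) ∧
      (∀ r ∈ R, ∏ i, s r i = 1) ∧ (∀ g k, π g = π k → s g = s k → g = k) ∧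
      ∀ g i j c, ρ g (x i) = c • x j → π g i = j ∧ s g i = c := by
  have x0 : ∀ g i, ρ g (x i) ≠ 0 := fun g i e' => by
    obtain ⟨k, hk⟩ := h1 i
    exact h.ne0 k (hk ▸ ap_zero e')
  have x1 : ∀ i, x i ≠ 0 := fun i e' => x0 1 i (by rw [e', map_zero])
  have : ∀ g i, ∃ j, ∃ c : ZMod 3, ρ g (x i) = c • x j := fun g i => by
    obtain ⟨k, hk⟩ := h1 i
    rw [hk, ← mul_ap]
    exact h2 _
  choose p s hs using this
  have u : ∀ g i j c, ρ g (x i) = c • x j → p g i = j ∧ s g i = c := fun g i j c hc => by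
    obtain rfl := h3 _ _ ((Ln.symm ⟨_, hs g i⟩ (x0 g i)).trans ⟨c, hc⟩)
    exact ⟨rfl, smul_left_injective _ (x1 _) ((hs g i).symm.trans hc)⟩
  have m : ∀ g k i, p (g * k) i = p g (p k i) ∧ s (g * k) i = s g (p k i) * s k i :=
    fun g k i => u _ _ _ _ (by rw [mul_ap, hs, map_smul, hs, smul_smul, mul_comm])
  have o : ∀ i, p 1 i = i := fun i => (u 1 i i 1 (by rw [one_ap, one_smul])).1
  let π : G →* Equiv.Perm I := MonoidHom.toHomPerm
    { toFun := p, map_one' := funext o, map_mul' := fun g k => funext fun i => (m g k i).1 }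
  have s0 : ∀ g i, s g i ≠ 0 := fun g i e' => x0 g i (by rw [hs, e', zero_smul])
  let χ : G →* ZMod 3 :=
    { toFun := fun g => ∏ i, s g i
      map_one' := Finset.prod_eq_one fun i _ => (u 1 i i 1 (by rw [one_ap, one_smul])).2
      map_mul' := fun g k => by
        simp only [(m g k _).2, Finset.prod_mul_distrib]
        exact congrArg (· * _) (Equiv.prod_comp (π k) (s g)) }
  refine ⟨π, s, hs, s0, fun g k i => (m g k i).2, fun r hr => ?_, fun g k a c => ?_, u⟩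
  · have : χ b = 1 := (by decide : ∀ c : ZMod 3, c * c * c = 1 → c = 1) _
      (by rw [← map_mul, ← map_mul, h.b3, map_one])
    exact (h.gen (K := χ.toHomUnits.ker) (Units.ext this)).ge (mem_top r) |> congrArg Units.val
  · refine (inv_mul_eq_one.1 (h.fix fun j => ?_)).symm
    obtain ⟨i, hi⟩ := h2 j
    refine hi.fix ?_
    rw [mul_ap, hs, c, show p g i = p k i from DFunLike.congr_fun a i, ← hs, inv_ap]

theorem pow_four {H : Type*} [Group H] (π : G →* H) (hH : ∀ x : H, x ^ 12 = 1) {r : G}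
    (hr : r ∈ R) : π r ^ 4 = 1 := by
  have h1 : orderOf (π r) ∣ 4 * 3 := orderOf_dvd_of_pow_eq_one (hH _)
  exact orderOf_dvd_iff_pow_eq_one.1 ((Nat.Coprime.symm (Nat.prime_three.coprime_iff_not_dvd.2
    fun e => h.cop (e.trans ((orderOf_map_dvd π r).trans
      (R.orderOf_dvd_natCard hr))))).dvd_of_dvd_mul_right h1)

omit [Finite G] in
theorem ind : ¬ Ln (ρ b e) e ∧ ¬ Ln (ρ b (ρ b e)) (ρ b e) ∧ ¬ Ln e (ρ b (ρ b e)) ∧
    ¬ Ln e (ρ b e) ∧ ¬ Ln (ρ b e) (ρ b (ρ b e)) ∧ ¬ Ln (ρ b (ρ b e)) e := by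
  have a1 : ¬ Ln (ρ b e) e := fun ⟨c, hc⟩ => h.fr.nsm c hc
  have a2 : ¬ Ln (ρ b (ρ b e)) (ρ b e) := fun ⟨c, hc⟩ => h.fr.rot.nsm c hc
  have a3 : ¬ Ln e (ρ b (ρ b e)) := fun ⟨c, hc⟩ => h.fr.rot.rot.nsm c (by rwa [h.fr.bbb])
  exact ⟨a1, a2, a3, fun l => a1 (l.symm h.fr.e0), fun l => a2 (l.symm (h.ne0 b)),
    fun l => a3 (l.symm h.rot.rot.fr.e0)⟩

theorem case3 (h3 : ∀ g, Sp ρ b e (ρ g e)) : R = h.fr.toV4.sub := by
  obtain ⟨i1, i2, i3, i4, i5, i6⟩ := h.ind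
  obtain ⟨π, s, -, s0, -, sp, inj, u⟩ := h.data (I := Fin 3) ![e, ρ b e, ρ b (ρ b e)]
    (fun i => by
      fin_cases i
      exacts [⟨1, (one_ap _).symm⟩, ⟨b, rfl⟩, ⟨b * b, (mul_ap _ _ _).symm⟩])
    (fun g => by
      rcases h3 g with j | j | j
      exacts [⟨0, j⟩, ⟨1, j⟩, ⟨2, j⟩])
    (fun i j l => by fin_cases i <;> fin_cases j <;> first | rfl | contradiction)
  have hb : π b = finRotate 3 := Equiv.ext fun i => by
    fin_cases i
    exacts [(u b 0 1 1 (by simp)).1, (u b 1 2 1 (by simp)).1, (u b 2 0 1 (by simp [h.fr.bbb])).1]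
  have p4 := fun r => h.pow_four π (by decide +kernel) (r := r)
  have h1 : ∀ r ∈ R, π r = 1 := fun r hr => (by decide +kernel : ∀ σ : Equiv.Perm (Fin 3), σ ^ 4 = 1 →
      (σ * finRotate 3 * σ⁻¹ * (finRotate 3)⁻¹) ^ 4 = 1 → σ = 1) _ (p4 r hr) (by
    have := p4 _ (h.comm_mem r)
    rwa [map_mul, map_mul, map_mul, map_inv, map_inv, hb] at this)
  have hv' := h.nrm.conj_mem _ h.mem b
  obtain ⟨t1, t2, t3, t4⟩ := h.fr.tab
  have t5 := h.fr.h1
  have t6 := h.fr.h2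
  refine le_antisymm (fun r hr => (V4.mem_sub _).2 ?_) (V4.sub_le _ h.mem hv')
  generalize b * v * b⁻¹ = w at *
  have key : ∀ (k : G) (c : Fin 3 → ZMod 3), k ∈ R → ρ k e = c 0 • e → ρ k (ρ b e) = c 1 • ρ b e →
      ρ k (ρ b (ρ b e)) = c 2 • ρ b (ρ b e) → s r = c → r = k := fun k c hk a0 a1 a2 a =>
    inj _ _ ((h1 r hr).trans (h1 k hk).symm) (a.trans (funext fun i => by
      fin_cases i
      exacts [(u k 0 0 _ a0).2.symm, (u k 1 1 _ a1).2.symm, (u k 2 2 _ a2).2.symm]))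
  rcases (by decide : ∀ c : Fin 3 → ZMod 3, ∏ i, c i = 1 → c = ![1, 1, 1] ∨ c = ![1, -1, -1] ∨
    c = ![-1, 1, -1] ∨ c = ![-1, -1, 1]) _ (sp r hr) with a | a | a | a
  · exact Or.inl (key 1 _ (one_mem _) (by simp) (by simp) (by simp) a)
  · exact Or.inr (Or.inl (key v _ h.mem (by simp [t5]) (by simp [t1]) (by simp [t3]) a))
  · exact Or.inr (Or.inr (Or.inl (key w _ hv' (by simp [t6]) (by simp [t2]) (by simp [t4]) a)))
  · exact Or.inr (Or.inr (Or.inr (key _ _ (mul_mem h.mem hv') (by simp [t5, t6])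
      (by simp [t1, t2]) (by simp [t3, t4]) a)))

theorem pairs (k j : G) :
    (Sp ρ (k * b * k⁻¹) (ρ k e) (ρ j e) ∨ Sp ρ (k * b * k⁻¹) (ρ k e) (ρ (j * b) e)) ∧
    (Sp ρ (k * b * k⁻¹) (ρ k e) (ρ (j * b) e) ∨ Sp ρ (k * b * k⁻¹) (ρ k e) (ρ (j * b * b) e)) ∧
    (Sp ρ (k * b * k⁻¹) (ρ k e) (ρ (j * b * b) e) ∨ Sp ρ (k * b * k⁻¹) (ρ k e) (ρ j e)) := by
  have key : ∀ j : G, Sp ρ (k * b * k⁻¹) (ρ k e) (ρ (j * b) e) ∨
      Sp ρ (k * b * k⁻¹) (ρ k e) (ρ (j * b * b) e) := fun j => by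
    have e1 : j * (j⁻¹ * k * b * (j⁻¹ * k)⁻¹) * j⁻¹ = k * b * k⁻¹ := by group
    have e2 : ρ j (ρ (j⁻¹ * k) e) = ρ k e := by rw [mul_ap, ap_inv]
    refine (h.pair (j⁻¹ * k)).imp (fun a => ?_) fun a => ?_
    · have := a.conj j
      rwa [e1, e2, ← mul_ap] at this
    · have := a.conj j
      rwa [e1, e2, ← mul_ap, ← mul_ap] at this
  have e3 : j * b * b * b = j := by rw [mul_assoc, mul_assoc, ← mul_assoc b, h.b3, mul_one]
  have a1 := key (j * b * b)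
  have a2 := key (j * b)
  rw [e3] at a1 a2
  exact ⟨a1, key j, a2⟩

theorem cover {g : G} (hg : ¬ Sp ρ b e (ρ g e)) (k : G) :
    Sp ρ b e (ρ k e) ∨ Ln (ρ k e) (ρ g e) := by
  by_contra hc
  push Not at hc
  obtain ⟨i1, i2, i3, i4, i5, i6⟩ := h.ind
  have hf := (h.dich g).resolve_left hg
  -- two further lines of a support which does not lie in the first support
  have two : ∀ k : G, ¬ Sp ρ b e (ρ k e) → ∀ x y z : E, x ≠ 0 → y ≠ 0 → z ≠ 0 → ¬ Ln x y →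
      ¬ Ln y z → ¬ Ln z x → ¬ Ln x (ρ k e) → ¬ Ln y (ρ k e) → ¬ Ln z (ρ k e) →
      Sp ρ (k * b * k⁻¹) (ρ k e) x → Sp ρ (k * b * k⁻¹) (ρ k e) y →
      Sp ρ (k * b * k⁻¹) (ρ k e) z → False := by
    rintro k - x y z x0 y0 z0 a1 a2 a3 c1 c2 c3 (d1 | d1 | d1) (d2 | d2 | d2) (d3 | d3 | d3) <;>
      first
        | contradiction
        | exact a1 (d1.trans (d2.symm y0))
        | exact a2 (d2.trans (d3.symm z0))
        | exact a3 (d3.trans (d1.symm x0))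
  have n0 := h.fr.e0
  have n1 := h.ne0 b
  have n2 := h.rot.rot.fr.e0
  have n3 := h.ne0 g
  have l0 : ∀ k, ¬ Sp ρ b e (ρ k e) → ¬ Ln e (ρ k e) ∧ ¬ Ln (ρ b e) (ρ k e) ∧
      ¬ Ln (ρ b (ρ b e)) (ρ k e) := fun k hk => ⟨fun l => hk (Or.inl (l.symm n0)),
    fun l => hk (Or.inr (Or.inl (l.symm n1))), fun l => hk (Or.inr (Or.inr (l.symm n2)))⟩
  obtain ⟨g0, g1, g2⟩ := l0 g hg
  obtain ⟨k0, k1, k2⟩ := l0 k hc.1
  have k3 : ¬ Ln (ρ g e) (ρ k e) := fun l => hc.2 (l.symm n3)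
  -- the support of `k` contains three of the four lines
  have p1 := h.pairs k 1
  simp only [one_mul, one_ap, mul_ap b b] at p1
  have pr : ∀ (j : G) (x y : E), x ≠ 0 → y ≠ 0 → ¬ Ln x y → Sp ρ (j * b * j⁻¹) (ρ j e) x →
      Sp ρ (j * b * j⁻¹) (ρ j e) y →
      Sp ρ (k * b * k⁻¹) (ρ k e) x ∨ Sp ρ (k * b * k⁻¹) (ρ k e) y := by
    intro j x y x0 y0 a d1 d2
    obtain ⟨q1, q2, q3⟩ := h.pairs k j
    simp only [Sp, mul_ap, inv_ap] at d1 d2
    simp only [mul_ap j, mul_assoc j, mul_ap b] at q1 q2 q3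
    rcases d1 with d1 | d1 | d1 <;> rcases d2 with d2 | d2 | d2 <;>
      first
        | exact absurd (d1.trans (d2.symm y0)) a
        | exact Or.imp (fun a => Sp.ln a d1) (fun a => Sp.ln a d2) q1
        | exact Or.imp (fun a => Sp.ln a d1) (fun a => Sp.ln a d2) q2
        | exact Or.imp (fun a => Sp.ln a d1) (fun a => Sp.ln a d2) q3
        | exact Or.imp (fun a => Sp.ln a d1) (fun a => Sp.ln a d2) q1.symm
        | exact Or.imp (fun a => Sp.ln a d1) (fun a => Sp.ln a d2) q2.symm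
        | exact Or.imp (fun a => Sp.ln a d1) (fun a => Sp.ln a d2) q3.symm
  have st : ∀ (j : G) (x : E), Sp ρ (j * b * j⁻¹) (ρ j e) x →
      Sp ρ (b * j * b * (b * j)⁻¹) (ρ (b * j) e) (ρ b x) := fun j x a => by
    have := a.conj b
    rwa [← mul_ap, show b * (j * b * j⁻¹) * b⁻¹ = b * j * b * (b * j)⁻¹ by group] at this
  have s0 : Sp ρ (g * b * g⁻¹) (ρ g e) (ρ g e) := Or.inl Ln.rfl
  have s1 := st _ _ s0
  rw [hf] at s1
  have s2 := st _ _ s1
  rw [hf] at s2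
  have ex : ∃ j, Sp ρ (j * b * j⁻¹) (ρ j e) e ∧ Sp ρ (j * b * j⁻¹) (ρ j e) (ρ g e) := by
    have p2 := h.pairs g 1
    simp only [one_mul, one_ap, mul_ap b b] at p2
    rcases p2.2.2 with a | a
    · exact ⟨_, by have := st _ _ a; rwa [h.fr.bbb] at this, s1⟩
    · exact ⟨_, a, s0⟩
  obtain ⟨j, j0, j3⟩ := ex
  have j1 := st _ _ j0
  have j4 := st _ _ j3
  rw [hf] at j4
  have j2 := st _ _ j1
  have j5 := st _ _ j4
  rw [hf] at j5
  have r0 := pr _ _ _ n0 n3 g0 j0 j3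
  have r1 := pr _ _ _ n1 n3 g1 j1 j4
  have r2 := pr _ _ _ n2 n3 g2 j2 j5
  have g0' : ¬ Ln (ρ g e) e := fun l => g0 (l.symm n3)
  have g1' : ¬ Ln (ρ g e) (ρ b e) := fun l => g1 (l.symm n3)
  by_cases c3 : Sp ρ (k * b * k⁻¹) (ρ k e) (ρ g e)
  · rcases p1 with ⟨a | a, c | c, d | d⟩
    all_goals first
      | exact two k hc.1 _ _ _ n0 n1 n3 i4 g1 g0' k0 k1 k3 ‹_› ‹_› c3
      | exact two k hc.1 _ _ _ n1 n2 n3 i5 g2 g1' k1 k2 k3 ‹_› ‹_› c3
      | exact two k hc.1 _ _ _ n0 n2 n3 i3 g2 g0' k0 k2 k3 ‹_› ‹_› c3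
  · exact two k hc.1 _ _ _ n0 n1 n2 i4 i5 i6 k0 k1 k2 (r0.resolve_right c3) (r1.resolve_right c3)
      (r2.resolve_right c3)

end Mo

end Cfsg.Lib.Jb3
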