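import Cfsg.Agent.Lib.Jb3.St
import Cfsg.Agent.Lib.FGS.CycSylow

/-!
# Elements of order three with a single Jordan block of size three: an abelian normal subgroup
-/

set_option autoImplicit false

namespace Cfsg.Lib.Jb3

open Subgroup Module Cfsg.Lib.BG Cfsg.Lib.Core
open scoped commutatorElement

variable {G : Type*} [Group G] {E : Type*} [AddCommGroup E] [Module (ZMod 3) E]
  {ρ : Representation (ZMod 3) G E} {b v : G} {e : E} {R : Subgroup G} [Finite G] [Finite E]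

theorem mem_cent_of_card {H : Type*} [Group H] [Finite H] {Y : Subgroup H} [Y.Normal] {q : ℕ}
    (hq : q.Prime) (hY : Nat.card Y ∣ q) (h3 : ¬ 3 ∣ q - 1) {x : H} (hx : x ^ 3 = 1) :
    x ∈ 𝐂(Y) := by
  rcases (Nat.dvd_prime hq).1 hY with h1 | h1
  · rw [card_eq_one.1 h1]
    exact mem_cent.2 fun y hy => by simp [mem_bot.1 hy]
  haveI := Fact.mk hq
  have h3' : IsCyclic Y := isCyclic_of_prime_card h1
  have h4 : (𝐂(Y)).index ∣ q - 1 := by
    have e : (MulAut.conjNormal : H →* MulAut Y).ker = 𝐂(Y) := by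
      ext g
      simp only [MonoidHom.mem_ker, MulEquiv.ext_iff, Subtype.ext_iff, mem_cent, Subtype.forall,
        MulAut.conjNormal_apply, MulAut.one_apply, mul_inv_eq_iff_eq_mul]
      exact forall₂_congr fun _ _ => eq_comm
    rw [← e, index_ker, ← Nat.totient_prime hq, ← h1, ← IsCyclic.card_mulAut]
    exact card_subgroup_dvd_card _
  have h5 : (x : H ⧸ 𝐂(Y)) ^ 3 = 1 := by rw [← QuotientGroup.mk_pow, hx, QuotientGroup.mk_one]
  exact (QuotientGroup.eq_one_iff x).1 (orderOf_eq_one_iff.1 (((Nat.dvd_prime Nat.prime_three).1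
    (orderOf_dvd_of_pow_eq_one h5)).resolve_right fun e =>
      h3 ((e.symm.dvd.trans (_root_.orderOf_dvd_natCard _)).trans h4)))

/-- A minimal normal subgroup not centralized by `b`. -/
structure Nice (R : Subgroup G) (b : G) (A : Subgroup G) : Prop where
  nrm : A.Normal
  le : A ≤ R
  nc : b ∉ 𝐂(A)
  min : ∀ (K : Subgroup G) [K.Normal], K < A → K ≤ center G

/-- An element of `R` with norm one which is not trivial and has central square. -/
structure Nm (R : Subgroup G) (b u : G) : Prop where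
  mem : u ∈ R
  ne : u ≠ 1
  sq : u * u ∈ center G
  pr : u * (b * u * b⁻¹) * (b * (b * u * b⁻¹) * b⁻¹) = 1

namespace St

variable (h : St ρ R b)
include h

theorem three {K : Subgroup G} [K.Normal] (hK : IsPGroup 3 K) : K = ⊥ := by
  haveI := h.nrm
  haveI : Fact (Nat.Prime 3) := ⟨Nat.prime_three⟩
  have h1 : ∀ x ∈ K, x ∈ R → x = 1 := fun x a b => by
    obtain ⟨k, hk⟩ := IsPGroup.iff_orderOf.1 hK ⟨x, a⟩
    rw [← orderOf_coe] at hk
    rcases k with _ | k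
    · exact orderOf_eq_one_iff.1 hk
    · exact absurd ((dvd_pow_self 3 k.succ_ne_zero).trans (hk ▸ R.orderOf_dvd_natCard b)) h.cop
  have h2 : b ∈ 𝐂(K) := mem_cent.2 fun g hg => mul_inv_eq_iff_eq_mul.1 (mul_inv_eq_one.1
    (h1 _ (by
      rw [mul_assoc, mul_assoc, ← mul_assoc b]
      exact mul_mem hg (‹K.Normal›.conj_mem _ (inv_mem hg) b)) (h.comm_mem g)))
  refine eq_bot_iff.2 fun g hg => ?_
  obtain ⟨k, hk⟩ := IsPGroup.iff_orderOf.1 hK ⟨g, hg⟩
  rw [← orderOf_coe] at hk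
  exact orderOf_eq_one_iff.1 (Nat.eq_one_of_dvd_coprimes (Nat.Coprime.pow_left k (by decide))
    hk.dvd (orderOf_dvd_of_pow_eq_one (n := 2) (by rw [pow_two, h.cen_sq (h.le_center h2 hg)])))

theorem cent_le : 𝐂(pCore 2 G) ≤ pCore 2 G := by
  haveI := h.sol
  have : fittingSubgroup G ≤ pCore 2 G := by
    refine (fittingSubgroup_eq_iSup_pCore G).trans_le (iSup_le fun ⟨q, hq⟩ => ?_)
    haveI := Fact.mk hq
    by_cases h2 : q = 2
    · subst h2; exact le_rfl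
    by_cases h3 : q = 3
    · subst h3; exact (h.three (pCore_isPGroup 3 G)).trans_le bot_le
    obtain ⟨k, hk⟩ := (pCore_isPGroup q G).exists_card_eq
    refine (h.eq_bot ?_).trans_le bot_le
    rw [hk]
    exact Nat.Coprime.pow_left k (Nat.Coprime.mul_right
      ((Nat.coprime_primes hq Nat.prime_two).2 h2) ((Nat.coprime_primes hq Nat.prime_three).2 h3))
  exact (centralizer_le (show (fittingSubgroup G : Set G) ⊆ pCore 2 G from this)).trans
    (centralizer_fittingSubgroup_le.trans this)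

theorem two (h4 : finrank (ZMod 3) (F0 ρ R) ≤ 4) : IsPGroup 2 R := by
  haveI := h.nrm
  haveI := h.sol
  haveI : Fact (Nat.Prime 2) := ⟨Nat.prime_two⟩
  haveI : Fact (Nat.Prime 3) := ⟨Nat.prime_three⟩
  haveI : Fact (Nat.Prime 13) := ⟨by decide⟩
  have hb : b ^ 3 = 1 := by rw [pow_succ, pow_two, h.b3]
  have h1 : Nat.card G ∣ 2 ^ 9 * 3 ^ 6 * 5 * 13 := by
    have := index_dvd (ρ := ρ) ⊤ (F0 ρ R) fun g _ x hx => h.inv_F0 g hx
    rw [show fixes ρ (F0 ρ R) = ⊥ from eq_bot_iff.2 fun g hg => h.faith hg, relIndex_top_right,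
      index_bot, card_units] at this
    refine this.trans ?_
    generalize finrank (ZMod 3) (F0 ρ R) = n at h4
    interval_cases n <;> simp [Fin.prod_univ_succ]
  have h2 : ¬ 9 ∣ Nat.card G := fun hd => by
    have : R.index ∣ 3 := by
      rw [← relIndex_top_right, ← h.sup, relIndex_sup_left]
      exact (Subgroup.relIndex_dvd_card _ _).trans
        (Nat.card_zpowers b ▸ orderOf_dvd_of_pow_eq_one hb)
    rw [← R.index_mul_card] at hd
    exact h.cop (Nat.dvd_of_mul_dvd_mul_left three_pos (hd.trans (Nat.mul_dvd_mul_right this _)))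
  have h3 : ¬ 13 ∣ Nat.card G := fun hd => by
    obtain ⟨g, hg⟩ := exists_prime_orderOf_dvd_card' 13 hd
    obtain ⟨k, hk⟩ := (pCore_isPGroup 2 G).exists_card_eq
    have h5 : 2 ^ k ∣ 2 ^ 9 := (Nat.Coprime.pow_left k (by decide)).dvd_of_dvd_mul_right
      (show 2 ^ k ∣ 2 ^ 9 * (3 ^ 6 * 5 * 13) from hk ▸ (card_subgroup_dvd_card _).trans h1)
    have h6 := h.cent_le (FGS.mem_cent_of_coprime_prod (pCore_isPGroup 2 G) (d := 9)
      (Nat.le_of_dvd (by decide) ((index_dvd_card _).trans (hk ▸ h5))) (g := g)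
      (le_normalizer_of_normal (mem_top g)) (by rw [hg]; decide) (by rw [hg]; decide))
    exact absurd ((hg ▸ hk ▸ (pCore 2 G).orderOf_dvd_natCard h6).trans h5) (by decide)
  set f := QuotientGroup.mk' (pCore 2 G)
  have h5 : f b ∈ 𝐂(fittingSubgroup (G ⧸ pCore 2 G)) := by
    refine cent_symm ((fittingSubgroup_eq_iSup_pCore _).trans_le (iSup_le fun ⟨q, hq⟩ =>
      cent_symm (zpowers_le.2 ?_))) (mem_zpowers _)
    haveI := Fact.mk hq
    obtain ⟨k, hk⟩ := (pCore_isPGroup q (G ⧸ pCore 2 G)).exists_card_eq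
    have hd : q ^ k ∣ Nat.card G :=
      hk ▸ (card_subgroup_dvd_card _).trans (card_quotient_dvd_card _)
    have hb' : f b ^ 3 = 1 := by rw [← map_pow, hb, map_one]
    by_cases h2' : q = 2
    · subst h2'
      exact mem_cent_of_card hq (by simp [pCore_quotient_pCore]) (by decide) hb'
    rcases k with _ | k
    · exact mem_cent_of_card Nat.prime_two (by simp [hk]) (by decide) hb'
    have hq' := (dvd_pow_self q k.succ_ne_zero).trans hd
    have : q = 3 ∨ q = 5 := by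
      have := hq'.trans h1
      simp only [hq.dvd_mul] at this
      rcases this with ((a | a) | a) | a
      · exact absurd ((Nat.prime_dvd_prime_iff_eq hq Nat.prime_two).1 (hq.dvd_of_dvd_pow a)) h2'
      · exact Or.inl ((Nat.prime_dvd_prime_iff_eq hq Nat.prime_three).1 (hq.dvd_of_dvd_pow a))
      · exact Or.inr ((Nat.prime_dvd_prime_iff_eq hq Nat.prime_five).1 a)
      · exact absurd ((Nat.prime_dvd_prime_iff_eq hq Fact.out).1 a ▸ hq') h3
    rcases k with _ | k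
    · exact mem_cent_of_card hq (by simp [hk]) (by rcases this with rfl | rfl <;> decide) hb'
    have hq2 := (pow_dvd_pow q (by omega : 2 ≤ k + 1 + 1)).trans hd
    rcases this with rfl | rfl
    · exact absurd hq2 h2
    · exact absurd (hq2.trans h1) (by decide)
  have h6 : zpowers (f b) ≤ pCore 3 _ := (le_pCoreOf_of_isNilpotent inferInstance
    (zpowers_le.2 (centralizer_fittingSubgroup_le h5)) (IsPGroup.of_card_dvd_pow (n := 1) (by
      rw [Nat.card_zpowers]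
      exact orderOf_dvd_of_pow_eq_one (by rw [← map_pow, pow_one, hb, map_one])))).trans
    (pCoreOf_le_pCore _)
  have h7 : R.map f ≤ pCore 3 _ := by
    rw [← h.com, map_commutator, MonoidHom.map_zpowers]
    exact (commutator_mono le_rfl h6).trans (commutator_le_right _ _)
  obtain ⟨k, hk⟩ := ((pCore_isPGroup 3 _).to_le h7).exists_card_eq
  refine (pCore_isPGroup 2 G).to_le ((map_mk'_eq_bot_iff _ _).1 (card_eq_one.1 ?_))
  rcases k with _ | k
  · exact hk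
  · exact absurd ((dvd_pow_self 3 k.succ_ne_zero).trans (hk ▸ card_map_dvd _ _)) h.cop

theorem exists_nice {C : Subgroup G} [C.Normal] (hC : C ≤ R) (hb : b ∉ 𝐂(C)) :
    ∃ A ≤ C, Nice R b A := by
  obtain ⟨A, h1, ⟨h2, h3⟩, h4⟩ := exists_minimal_le
    (P := fun A : Subgroup G => A.Normal ∧ b ∉ 𝐂(A)) (H := C) ⟨‹_›, hb⟩
  exact ⟨A, h1, h2, h1.trans hC, h3, fun K _ hK => h.le_center
    (not_not.1 fun e => hK.ne (h4 K ⟨‹_›, e⟩ hK.le))⟩

theorem nice {A : Subgroup G} (hA : Nice R b A) : (∀ x ∈ A, ∀ y ∈ A, x * y * x⁻¹ * y⁻¹ ∈ center G) ∧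
    ∃ y ∈ A, Nm R b (y * b * y⁻¹ * b⁻¹) := by
  haveI := hA.nrm
  haveI := h.sol
  haveI : Fact (Nat.Prime 2) := ⟨Nat.prime_two⟩
  have h0 : A ≠ ⊥ := fun e => hA.nc (mem_cent.2 fun y hy => by simp [mem_bot.1 (e.le hy)])
  have h1 := hA.min _ (commutator_lt_of_isSolvable inferInstance h0)
  have h2 : Group.IsNilpotent A := isNilpotent_of_commutator_commutator_eq_bot
    (commutator_eq_bot_iff_le_centralizer.2 (h1.trans (center_le_centralizer _)))
  have h3 : IsPGroup 2 A := by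
    have := pCoreOf_sup_pPrimeCoreOf h2 2
    rw [h.eq_bot (Y := (pPrimeCore 2 A).map A.subtype) ((pPrimeCoreOf_coprime 2 A).mul_right
      ((Nat.prime_three.coprime_iff_not_dvd.2 fun e => h.cop (e.trans (card_dvd_of_le
        ((map_subtype_le _).trans hA.le)))).symm)), sup_bot_eq] at this
    exact this ▸ pCoreOf_isPGroup 2 A
  refine ⟨fun x hx y hy => h1 (commutator_mem_commutator hx hy), ?_⟩
  obtain ⟨y, hy, h4⟩ : ∃ y ∈ A, y * b ≠ b * y := by simpa [mem_cent] using hA.nc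
  have h5 : y * b * y⁻¹ * b⁻¹ ∈ A := by
    rw [mul_assoc, mul_assoc, ← mul_assoc b]
    exact mul_mem hy (hA.nrm.conj_mem _ (inv_mem hy) b)
  refine ⟨y, hy, hA.le h5, fun e => h4 (mul_inv_eq_iff_eq_mul.1 (mul_inv_eq_one.1 e)),
    hA.min _ (frattiniOf_lt h0) ⟨_, PGroup.pow_mem_frattini h3 ⟨_, h5⟩, pow_two _⟩, ?_⟩
  calc _ = y * (b * b * b) * y⁻¹ * (b * b * b)⁻¹ := by group
    _ = 1 := by simp [h.b3]

theorem mk4 {u : G} (hu : Nm R b u) (hc : u * (b * u * b⁻¹) = b * u * b⁻¹ * u) : V4 b u := by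
  have h1 : ∀ x, x * x = u * u → b * x * b⁻¹ * (b * x * b⁻¹) = u * u := fun x hx => by
    rw [conj_mul, hx, mem_center_iff.1 hu.sq b, mul_inv_cancel_right]
  have h2 := h1 _ rfl
  have h3 := h1 _ h2
  have h4 := eq_inv_of_mul_eq_one_right hu.pr
  have h5 : u * (b * u * b⁻¹) * (u * (b * u * b⁻¹)) = 1 := by
    rw [Commute.mul_mul_mul_comm hc.symm, h2, h.cen_sq hu.sq]
  exact ⟨h.b3, hu.ne, by rw [← h3, h4, ← mul_inv_rev, h5, inv_one], hc,
    h4.trans (inv_eq_of_mul_eq_one_left h5)⟩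

theorem cj {u : G} (hu : ∀ r ∈ R, r * u * r⁻¹ * u⁻¹ ∈ center G) {K : Subgroup G}
    (h0 : center G ≤ K) (h1 : u ∈ K) (h2 : b * u * b⁻¹ ∈ K) (h3 : b * (b * u * b⁻¹) * b⁻¹ ∈ K)
    (g : G) : g * u * g⁻¹ ∈ K := by
  have key : ∀ r ∈ R, ∀ k : G, k * u * k⁻¹ ∈ K → r * k * u * (r * k)⁻¹ ∈ K := fun r hr k hk => by
    have := mul_mem (h0 ((inferInstance : (center G).Normal).conj_mem _
      (hu _ (h.nrm.conj_mem _ hr k⁻¹)) k)) hk
    convert this using 1
    group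
  obtain ⟨r, hr, rfl | rfl | rfl⟩ := h.elt g
  · simpa using key _ hr 1 (by simpa)
  · exact key _ hr b h2
  · rw [mul_assoc r b b]
    exact key _ hr (b * b) (by convert h3 using 1; group)

theorem good (hv : V4 b v) (hu : ∀ r ∈ R, r * v * r⁻¹ * v⁻¹ ∈ center G) (g : G) :
    v * (g * v * g⁻¹) = g * v * g⁻¹ * v :=
  (mem_centralizer_singleton_iff.1 (h.cj (K := 𝐂[v]) hu (center_le_centralizer _)
    (mem_centralizer_singleton_iff.2 rfl) (mem_centralizer_singleton_iff.2 hv.cm.symm)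
    (hv.pr ▸ mul_mem (mem_centralizer_singleton_iff.2 rfl)
      (mem_centralizer_singleton_iff.2 hv.cm.symm)) g)).symm

theorem red2 (hR : IsPGroup 2 R) :
    ∃ v ∈ R, V4 b v ∧ ∀ g, v * (g * v * g⁻¹) = g * v * g⁻¹ * v := by
  haveI := h.nrm
  haveI : Fact (Nat.Prime 2) := ⟨Nat.prime_two⟩
  by_contra hc
  have H : ∀ v ∈ R, V4 b v → (∀ r ∈ R, r * v * r⁻¹ * v⁻¹ ∈ center G) → False :=
    fun v a c d => hc ⟨v, a, c, h.good c d⟩
  have key : ∀ (C : Subgroup G) [C.Normal], C ≤ R → b ∉ 𝐂(C) → ∃ A ≤ C, A.Normal ∧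
      (∀ r ∈ R, ∀ x ∈ A, r * x * r⁻¹ * x⁻¹ ∈ center G) ∧ ∃ u ∈ A, Nm R b u ∧
      u * (b * u * b⁻¹) ≠ b * u * b⁻¹ * u := fun C _ hC hb => by
    obtain ⟨A, h1, hA⟩ := h.exists_nice hC hb
    haveI := hA.nrm
    obtain ⟨-, y, hy, h2⟩ := h.nice hA
    have h0 : A ≠ ⊥ := fun e => hA.nc (mem_cent.2 fun y hy => by simp [mem_bot.1 (e.le hy)])
    have h3 := hA.min _ (PGroup.commutator_lt (hR.to_le hA.le) hR le_normalizer_of_normal h0)
    rw [commutator_comm] at h3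
    have h4 : ∀ r ∈ R, ∀ x ∈ A, r * x * r⁻¹ * x⁻¹ ∈ center G := fun r hr x hx =>
      h3 (commutator_mem_commutator hr hx)
    have h5 : y * b * y⁻¹ * b⁻¹ ∈ A := by
      rw [mul_assoc, mul_assoc, ← mul_assoc b]
      exact mul_mem hy (hA.nrm.conj_mem _ (inv_mem hy) b)
    exact ⟨A, h1, hA.nrm, h4, _, h5, h2, fun e => H _ h2.mem (h.mk4 h2 e) fun r hr => h4 r hr _ h5⟩
  obtain ⟨v, hv, hv'⟩ := h.ex
  obtain ⟨A, hAR, hA, h1, u, hu, h2, h3⟩ := key R le_rfl fun e =>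
    hv'.ne_rot (eq_mul_inv_iff_mul_eq.2 (mem_cent.1 e v hv))
  have hu' := hA.conj_mem _ hu b
  set C := R ⊓ (𝐂[u] ⊓ 𝐂[b * u * b⁻¹]) with hC
  have hCu : u ∈ 𝐂(C) := mem_cent.2 fun c hc => mem_centralizer_singleton_iff.1 hc.2.1
  have hCu' : b * u * b⁻¹ ∈ 𝐂(C) := mem_cent.2 fun c hc => mem_centralizer_singleton_iff.1 hc.2.2
  have hCg := h.cj (fun r hr => h1 r hr u hu) (center_le_centralizer _) hCu hCu'
    (eq_inv_of_mul_eq_one_right h2.pr ▸ inv_mem (mul_mem hCu hCu'))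
  haveI : C.Normal := ⟨fun c hc g => ⟨h.nrm.conj_mem _ hc.1 g, by
    have a1 := mem_cent.1 (hCg g⁻¹) c hc
    have a2 := mem_cent.1 (hCg (g⁻¹ * b)) c hc
    refine mem_inf.2 ⟨mem_centralizer_singleton_iff.2 ?_, mem_centralizer_singleton_iff.2 ?_⟩
    · calc _ = g * (c * (g⁻¹ * u * g⁻¹⁻¹)) * g⁻¹ := by group
        _ = _ := by rw [a1]; group
    · calc _ = g * (c * (g⁻¹ * b * u * (g⁻¹ * b)⁻¹)) * g⁻¹ := by group
        _ = _ := by rw [a2]; group⟩⟩
  have hz := h1 u (hAR hu) _ hu'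
  have hz1 : u * (b * u * b⁻¹) * u⁻¹ * (b * u * b⁻¹)⁻¹ ≠ 1 := fun e =>
    h3 (mul_inv_eq_iff_eq_mul.1 (mul_inv_eq_one.1 e))
  by_cases hb : b ∈ 𝐂(C)
  · have h4 : ∀ r ∈ R, ∃ a ∈ A, a⁻¹ * r ∈ C := fun r hr => by
      suffices ∃ a ∈ A, a * u * a⁻¹ = r * u * r⁻¹ ∧
          a * (b * u * b⁻¹) * a⁻¹ = r * (b * u * b⁻¹) * r⁻¹ by
        obtain ⟨a, ha, a1, a2⟩ := this
        refine ⟨a, ha, mem_inf.2 ⟨mul_mem (inv_mem (hAR ha)) hr, mem_inf.2
          ⟨mem_centralizer_singleton_iff.2 ?_, mem_centralizer_singleton_iff.2 ?_⟩⟩⟩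
        · calc _ = a⁻¹ * (r * u * r⁻¹) * r := by group
            _ = _ := by rw [← a1]; group
        · calc _ = a⁻¹ * (r * (b * u * b⁻¹) * r⁻¹) * r := by group
            _ = _ := by rw [← a2]; group
      have c1 := h1 r hr u hu
      have c2 := h1 r hr _ hu'
      have hz' := h1 _ (hAR hu') u hu
      generalize b * u * b⁻¹ = w at *
      have hz1' : w * u * w⁻¹ * u⁻¹ ≠ 1 := fun e =>
        h3 (mul_inv_eq_iff_eq_mul.1 (mul_inv_eq_one.1 e)).symm
      by_cases d1 : r * u * r⁻¹ * u⁻¹ = 1 <;> by_cases d2 : r * w * r⁻¹ * w⁻¹ = 1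
      · exact ⟨1, one_mem _, by simp [mul_inv_eq_one.1 d1], by simp [mul_inv_eq_one.1 d2]⟩
      · exact ⟨u, hu, by simp [mul_inv_eq_one.1 d1], mul_right_cancel (h.cen_eq hz c2 hz1 d2)⟩
      · exact ⟨w, hu', mul_right_cancel (h.cen_eq hz' c1 hz1' d1), by simp [mul_inv_eq_one.1 d2]⟩
      · refine ⟨u * w, mul_mem hu hu', ?_, ?_⟩
        · calc _ = u * (w * u * w⁻¹ * u⁻¹) := by group
            _ = _ := by rw [mem_center_iff.1 hz' u, h.cen_eq hz' c1 hz1' d1]; group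
        · rw [← mul_right_cancel (h.cen_eq hz c2 hz1 d2)]; group
    have h5 : R ≤ A := h.com.ge.trans (commutator_le.2 fun r hr k hk => by
      obtain ⟨a, ha, hc⟩ := h4 r hr
      have a1 := mem_cent.1 (zpowers_le.2 hb hk) _ hc
      have : ⁅r, k⁆ = a * (k * a⁻¹ * k⁻¹) := by
        calc _ = a * (a⁻¹ * r * k) * r⁻¹ * k⁻¹ := by group
          _ = _ := by rw [a1]; group
      exact this ▸ mul_mem ha (hA.conj_mem _ (inv_mem ha) k))
    exact H v hv hv' fun r hr => h1 r hr v (h5 hv)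
  obtain ⟨B, hBC, hB, k1, s, hs, k2, k3⟩ := key C inf_le_left hb
  have hs' := hB.conj_mem _ hs b
  have hs'' := hB.conj_mem _ hs' b
  have hy := k1 s k2.mem _ hs'
  have hy1 : s * (b * s * b⁻¹) * s⁻¹ * (b * s * b⁻¹)⁻¹ ≠ 1 := fun e =>
    k3 (mul_inv_eq_iff_eq_mul.1 (mul_inv_eq_one.1 e))
  have m1 : ∀ x ∈ B, ∀ g : G, Commute x (g * u * g⁻¹) := fun x hx g =>
    mem_cent.1 (hCg g) x (hBC hx)
  have m2 : ∀ x ∈ B, Commute x u := fun x hx => by simpa using m1 x hx 1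
  have m3 : ∀ x ∈ B, Commute x (b * (b * u * b⁻¹) * b⁻¹) := fun x hx => by
    convert m1 x hx (b * b) using 1; group
  have e1 : b * (u * s) * b⁻¹ = b * u * b⁻¹ * (b * s * b⁻¹) := (conj_mul).symm
  have n : Nm R b (u * s) := by
    refine ⟨mul_mem h2.mem k2.mem, fun e => h3 ?_, ?_, ?_⟩
    · simpa [← eq_inv_of_mul_eq_one_left e] using (m1 _ (inv_mem hs) b).eq
    · rw [(m2 s hs).mul_mul_mul_comm]
      exact mul_mem h2.sq k2.sq
    · rw [e1, ← conj_mul, (m1 s hs b).mul_mul_mul_comm,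
        (m3 _ (mul_mem hs hs')).mul_mul_mul_comm, h2.pr, k2.pr, one_mul]
  refine H _ n.mem (h.mk4 n ?_) fun r hr => ?_
  · rw [e1, (m1 s hs b).mul_mul_mul_comm, (m2 _ hs').mul_mul_mul_comm]
    have a1 := mem_center_iff.1 hz
    have a2 := h.cen_sq hz
    have a3 := h.cen_eq hy hz hy1 hz1
    generalize b * u * b⁻¹ = w at *
    generalize b * s * b⁻¹ = t at *
    have a4 : u * w = u * w * u⁻¹ * w⁻¹ * (w * u) := by group
    have a5 : s * t = u * w * u⁻¹ * w⁻¹ * (t * s) := by rw [← a3]; group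
    generalize u * w * u⁻¹ * w⁻¹ = z at *
    rw [a4, a5, mul_assoc z, ← mul_assoc (w * u), a1, mul_assoc z (w * u), ← mul_assoc z z, a2,
      one_mul]
  · have a1 := h1 r hr u hu
    have := mul_mem a1 ((inferInstance : (center G).Normal).conj_mem _ (k1 r hr s hs) u)
    convert this using 1
    group

theorem red : ∃ v ∈ R, V4 b v ∧ ∀ g, v * (g * v * g⁻¹) = g * v * g⁻¹ * v := by
  haveI := h.nrm
  obtain ⟨v, hv, hv'⟩ := h.ex
  obtain ⟨A, -, hA⟩ := h.exists_nice le_rfl fun e =>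
    hv'.ne_rot (eq_mul_inv_iff_mul_eq.2 (mem_cent.1 e v hv))
  haveI := hA.nrm
  obtain ⟨h1, y, hy, h2⟩ := h.nice hA
  have h5 : y * b * y⁻¹ * b⁻¹ ∈ A := by
    rw [mul_assoc, mul_assoc, ← mul_assoc b]
    exact mul_mem hy (hA.nrm.conj_mem _ (inv_mem hy) b)
  by_cases hc : A ≤ 𝐂(A)
  · have := fun g => mem_cent.1 (hc (hA.nrm.conj_mem _ h5 g)) _ h5
    exact ⟨_, h2.mem, h.mk4 h2 (this b), this⟩
  have h3 := hA.min (A ⊓ 𝐂(A)) (inf_lt_left.2 hc)
  refine h.red2 (h.two ?_)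
  by_cases h4 : y * b * y⁻¹ * b⁻¹ * (b * (y * b * y⁻¹ * b⁻¹) * b⁻¹) =
      b * (y * b * y⁻¹ * b⁻¹) * b⁻¹ * (y * b * y⁻¹ * b⁻¹)
  · have h6 := h.mk4 h2 h4
    generalize y * b * y⁻¹ * b⁻¹ = u at *
    obtain ⟨e, he⟩ := h6.exists_fr h.inj h.rkb
    obtain ⟨a, ha, h7⟩ : ∃ a ∈ A, a * u ≠ u * a := by
      by_contra hn
      push Not at hn
      exact h6.ne_rot (eq_mul_inv_iff_mul_eq.2
        (mem_center_iff.1 (h3 ⟨h5, mem_cent.2 hn⟩) b).symm)
    refine (Submodule.finrank_mono (h.cen_rk (h1 a ha u h5) (fun e => h7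
      (mul_inv_eq_iff_eq_mul.1 (mul_inv_eq_one.1 e))) (W := U ρ (a * u * a⁻¹) ⊔ U ρ u) ?_)).trans
      (finrank_sup_le _ _ ((rk_conj_le a u).trans he.rkv) he.rkv)
    exact mul_mem (mem_inU.2 le_sup_left) (inv_mem (mem_inU.2 le_sup_right))
  · refine (Submodule.finrank_mono (h.cen_rk (h1 _ h5 _ (hA.nrm.conj_mem _ h5 b)) (fun e => h4
      (mul_inv_eq_iff_eq_mul.1 (mul_inv_eq_one.1 e))) (W := U ρ (y * b * y⁻¹) ⊔ U ρ b) ?_)).trans
      (finrank_sup_le _ _ ((rk_conj_le y b).trans h.rkb) h.rkb)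
    have a1 : b ∈ inU ρ (U ρ (y * b * y⁻¹) ⊔ U ρ b) := mem_inU.2 le_sup_right
    have a2 := mul_mem (mem_inU.2 le_sup_left) (inv_mem a1)
    have a3 := mul_mem (mul_mem a1 a2) (inv_mem a1)
    exact mul_mem (mul_mem (mul_mem a2 a3) (inv_mem a2)) (inv_mem a3)

end St

end Cfsg.Lib.Jb3
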