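import Cfsg.Agent.Lib.Jb3.Base

/-!
# Elements of order three with a single Jordan block of size three: the setting
-/

set_option autoImplicit false

namespace Cfsg.Lib.Jb3

open Subgroup Module Cfsg.Lib.BG Cfsg.Lib.Core
open scoped commutatorElement

variable {G : Type*} [Group G] {E : Type*} [AddCommGroup E] [Module (ZMod 3) E]
  {ρ : Representation (ZMod 3) G E} {b v : G} {e : E} {R : Subgroup G}

/-- The four-group as a subgroup. -/
def V4.sub (h : V4 b v) : Subgroup G where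
  carrier := {x | x = 1 ∨ x = v ∨ x = b * v * b⁻¹ ∨ x = v * (b * v * b⁻¹)}
  one_mem' := Or.inl rfl
  mul_mem' := by
    have a1 := h.sq; have a2 := h.rot.sq; have a3 := h.cm.symm
    generalize b * v * b⁻¹ = w at *
    have a4 : ∀ x, v * (v * x) = x := fun x => by rw [← mul_assoc, a1, one_mul]
    have a5 : ∀ x, w * (v * x) = v * (w * x) := fun x => by rw [← mul_assoc, a3, mul_assoc]
    rintro x y (rfl | rfl | rfl | rfl) (rfl | rfl | rfl | rfl) <;>
      simp only [mul_assoc, a1, a2, a3, a4, a5, one_mul, mul_one, Set.mem_ofPred_eq, true_or,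
        or_true]
  inv_mem' := by
    rintro x (rfl | rfl | rfl | rfl)
    · exact Or.inl inv_one
    · exact Or.inr (Or.inl (inv_eq_of_mul_eq_one_left h.sq))
    · exact Or.inr (Or.inr (Or.inl (inv_eq_of_mul_eq_one_left h.rot.sq)))
    · exact Or.inr (Or.inr (Or.inr (inv_eq_of_mul_eq_one_left (h.pr ▸ h.rot.rot.sq))))

theorem V4.mem_sub (h : V4 b v) {x : G} :
    x ∈ h.sub ↔ x = 1 ∨ x = v ∨ x = b * v * b⁻¹ ∨ x = v * (b * v * b⁻¹) := Iff.rfl

theorem V4.ne_rot (h : V4 b v) : v ≠ b * v * b⁻¹ := fun e => by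
  have := h.pr
  rw [← e, ← e, h.sq] at this
  exact h.ne this

theorem V4.elem (h : V4 b v) : IsElementaryAbelian 2 h.sub := by
  have : ∀ x ∈ h.sub, x * x = 1 := by
    rintro x (rfl | rfl | rfl | rfl)
    exacts [one_mul 1, h.sq, h.rot.sq, h.pr ▸ h.rot.rot.sq]
  refine ⟨abelian_iff.2 (le_cent_iff.2 fun x hx y hy => ?_), fun x hx => by rw [pow_two, this x hx]⟩
  rw [← inv_eq_of_mul_eq_one_left (this _ (mul_mem hx hy)), mul_inv_rev,
    inv_eq_of_mul_eq_one_left (this x hx), inv_eq_of_mul_eq_one_left (this y hy)]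

theorem V4.card (h : V4 b v) : Nat.card h.sub = 4 := by
  have a1 := h.ne; have a2 := h.rot.ne; have a3 := h.ne_rot
  have a4 : v * (b * v * b⁻¹) ≠ 1 := h.pr ▸ h.rot.rot.ne
  change Nat.card ({1, v, b * v * b⁻¹, v * (b * v * b⁻¹)} : Set G) = 4
  generalize b * v * b⁻¹ = w at *
  rw [Nat.card_coe_set_eq, Set.ncard_insert_of_notMem, Set.ncard_insert_of_notMem,
    Set.ncard_pair] <;> simp [*, eq_comm]

theorem V4.sub_le (h : V4 b v) {K : Subgroup G} (h1 : v ∈ K) (h2 : b * v * b⁻¹ ∈ K) :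
    h.sub ≤ K := by
  rintro x (rfl | rfl | rfl | rfl)
  exacts [one_mem _, h1, h2, mul_mem h1 h2]

variable [Finite G] [Finite E]

theorem Fr.cent_step (h : Fr ρ b v e) (hρ : Function.Injective ρ) {Y : Subgroup G} [Y.Normal]
    (hY : (Nat.card Y).Coprime 6) {x : G} (hx : x ∈ Y) (hc : x * v = v * x) :
    x * (b * v * b⁻¹) = b * v * b⁻¹ * x := by
  have co : ∀ y ∈ Y, (orderOf y).Coprime 6 := fun y hy =>
    hY.coprime_dvd_left (Y.orderOf_dvd_natCard hy)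
  have fx : ∀ y ∈ Y, y * v = v * y → ∀ z, ρ v z = -z → ρ y z = z := fun y hy hc z hz =>
    small (ρ := ρ) (co y hy) (W := LinearMap.ker (ρ v + 1))
      ((Submodule.finrank_mono fun x hx => h.neg_mem (eq_neg_of_add_eq_zero_left hx)).trans
        (finrank_span_two _ _)) (fun x hx => by
        have : ρ v x = -x := eq_neg_of_add_eq_zero_left hx
        change ρ v (ρ y x) + ρ y x = 0
        rw [← mul_ap, ← hc, mul_ap, this, map_neg, neg_add_cancel]) z
      (LinearMap.mem_ker.2 (add_eq_zero_iff_eq_neg.2 hz))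
  have a1 : ∀ z, ρ v z = z → ρ (b * v * b⁻¹) z - z ∈ Submodule.span (ZMod 3) {e} := fun z hz => by
    obtain ⟨c, hc⟩ := h.l1 (ρ (b * v * b⁻¹) z - z) (by rw [map_sub, ← mul_ap, h.cm, mul_ap, hz])
      (by rw [map_sub, ← mul_ap, h.rot.sq, one_ap, neg_sub])
    exact Submodule.mem_span_singleton.2 ⟨c, hc.symm⟩
  have hw := h.rot.sq
  have hvw := h.cm
  have dec := h.toV4.dec (ρ := ρ)
  generalize b * v * b⁻¹ = w at *
  have hy : w * x * w⁻¹ * x⁻¹ ∈ Y := mul_mem (‹Y.Normal›.conj_mem _ hx _) (inv_mem hx)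
  have hyv : w * x * w⁻¹ * x⁻¹ * v = v * (w * x * w⁻¹ * x⁻¹) :=
    (((Commute.mul_left hvw.symm hc).mul_left (Commute.inv_left hvw.symm)).mul_left
      (Commute.inv_left hc)).eq
  have := eq_one_of_rk hρ (co _ hy) (finrank_span_two e (ρ x e)) (U_le.2 fun z => by
    obtain ⟨x₀, x₁, x₂, x₃, rfl, a0, a1', a2, a3⟩ := dec z
    have b1 : ρ v (x₀ + x₁) = x₀ + x₁ := by rw [map_add, a0.1, a1'.1]
    rw [map_add, map_add, fx _ hy hyv _ a2.1, fx _ hy hyv _ a3.1]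
    generalize x₀ + x₁ = z at b1
    have b2 : ρ v (ρ x⁻¹ z) = ρ x⁻¹ z := by
      rw [← mul_ap, ← (Commute.inv_left hc).eq, mul_ap, b1]
    have b3 : ρ v (ρ x (ρ w (ρ x⁻¹ z))) = ρ x (ρ w (ρ x⁻¹ z)) := by
      rw [← mul_ap v, ← hc, mul_ap, ← mul_ap v, hvw, mul_ap, b2]
    obtain ⟨c₁, h1⟩ := Submodule.mem_span_singleton.1 (a1 _ b2)
    obtain ⟨c₂, h2⟩ := Submodule.mem_span_singleton.1 (a1 _ b3)
    refine Submodule.mem_span_pair.2 ⟨c₂, c₁, ?_⟩
    rw [← map_smul, h1, h2, map_sub, ap_inv, inv_eq_of_mul_eq_one_left hw, mul_ap, mul_ap, mul_ap]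
    abel)
  exact (mul_inv_eq_iff_eq_mul.1 (mul_inv_eq_one.1 this)).symm

theorem Fr.cent (h : Fr ρ b v e) (hρ : Function.Injective ρ) (hb : rk ρ b ≤ 2) {Y : Subgroup G}
    [Y.Normal] (hY : (Nat.card Y).Coprime 6) : b ∈ 𝐂(Y) := by
  have co : ∀ y ∈ Y, (orderOf y).Coprime 6 := fun y hy =>
    hY.coprime_dvd_left (Y.orderOf_dvd_natCard hy)
  have h1 : Y ≤ 𝐂[v] ⊓ 𝐂[b * v * b⁻¹] := by
    refine Coprime.le_of_forall_centralizer_le h.toV4.elem.1 (fun hc => ?_) le_normalizer_of_normal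
      (h.toV4.card ▸ (hY.coprime_dvd_right (by decide : 2 ∣ 6)).symm.pow_left 2) ?_
    · haveI : Fact (Nat.Prime 2) := ⟨Nat.prime_two⟩
      exact absurd (h.toV4.card ▸ PGroup.elemAb_card_le_of_isCyclic h.toV4.elem hc) (by decide)
    simp only [SetLike.le_def, mem_inf, mem_centralizer_singleton_iff]
    rintro a (rfl | rfl | rfl | rfl) ha x ⟨hx, hc⟩
    · exact absurd rfl ha
    · exact ⟨hc, h.cent_step hρ hY hx hc⟩
    · have := h.rot.rot.cent_step hρ hY hx (h.rot.cent_step hρ hY hx hc)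
      exact ⟨h.three ▸ this, hc⟩
    · have := h.rot.rot.cent_step hρ hY hx (h.pr ▸ hc)
      rw [h.three] at this
      exact ⟨this, h.cent_step hρ hY hx this⟩
  have h2 : ∀ {b v : G} {e : E}, Fr ρ b v e → ∀ y ∈ Y, y * v = v * y →
      y * (b * v * b⁻¹) = b * v * b⁻¹ * y → ρ y e = e := fun {b v e} h y hy c1 c2 =>
    small (ρ := ρ) (co y hy) ((finrank_span_one e).trans one_le_two) (fun x hx => by
      obtain ⟨c, rfl⟩ := Submodule.mem_span_singleton.1 hx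
      obtain ⟨d, hd⟩ := h.l1 (ρ y e) (by rw [← mul_ap, ← c1, mul_ap, h.h1])
        (by rw [← mul_ap, ← c2, mul_ap, h.h2, map_neg])
      rw [map_smul, hd]
      exact Submodule.smul_mem _ _ (Submodule.smul_mem _ _ (Submodule.mem_span_singleton_self e)))
      e (Submodule.mem_span_singleton_self e)
  refine mem_cent.2 fun y hy => ?_
  obtain ⟨c1, c2⟩ := mem_inf.1 (h1 hy)
  rw [mem_centralizer_singleton_iff] at c1 c2
  have c3 : y * (b * (b * v * b⁻¹) * b⁻¹) = b * (b * v * b⁻¹) * b⁻¹ * y :=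
    h.pr ▸ (Commute.mul_right c1 c2).eq
  have h3 : U ρ b ≤ LinearMap.ker (ρ y - 1) := h.Ub (sub_eq_zero.2 (h2 h y hy c1 c2))
    (sub_eq_zero.2 (h2 h.rot y hy c2 c3)) (sub_eq_zero.2 (h2 h.rot.rot y hy c3 (h.three.symm ▸ c1)))
  have h4 : y * b * y⁻¹ ∈ inU ρ (U ρ b) := by
    rw [mem_inU, U_conj]
    rintro _ ⟨x, hx, rfl⟩
    rwa [sub_eq_zero.1 (h3 hx)]
  have h5 : y * b * y⁻¹ * b⁻¹ ∈ Y := by
    rw [mul_assoc, mul_assoc, ← mul_assoc b]
    exact mul_mem hy (‹Y.Normal›.conj_mem _ (inv_mem hy) b)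
  have := eq_one_of_rk hρ (co _ h5) hb (mul_mem h4 (inv_mem (mem_inU.2 le_rfl)))
  exact mul_inv_eq_iff_eq_mul.1 (mul_inv_eq_one.1 this)

/-- The setting. -/
structure St (ρ : Representation (ZMod 3) G E) (R : Subgroup G) (b : G) : Prop where
  inj : Function.Injective ρ
  nrm : R.Normal
  cop : ¬ 3 ∣ Nat.card R
  sup : R ⊔ zpowers b = ⊤
  com : ⁅R, zpowers b⁆ = R
  sol : Group.IsSolvable G
  rkb : rk ρ b ≤ 2
  ex : ∃ v ∈ R, V4 b v

/-- The commutator space of `R`. -/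
def F0 (ρ : Representation (ZMod 3) G E) (R : Subgroup G) : Submodule (ZMod 3) E :=
  ⨆ r ∈ R, U ρ r

omit [Finite G] [Finite E] in
theorem U_le_F0 {r : G} (hr : r ∈ R) : U ρ r ≤ F0 ρ R := le_iSup₂_of_le r hr le_rfl

omit [Finite G] [Finite E] in
theorem F0_le {W : Submodule (ZMod 3) E} : F0 ρ R ≤ W ↔ R ≤ inU ρ W := iSup₂_le_iff

omit [Finite G] [Finite E] in
theorem mem_U_of_neg {g : G} {x : E} (h : ρ g x = -x) : x ∈ U ρ g := by
  have := mem_U (ρ := ρ) g x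
  rwa [h, show -x - x = x by linear_combination (norm := abel) - t3 x] at this

namespace St

variable (h : St ρ R b)
include h

omit [Finite G] in
theorem b3 : b * b * b = 1 := h.ex.choose_spec.2.b3

omit [Finite G] in
theorem fr : ∃ v ∈ R, ∃ e, Fr ρ b v e := by
  obtain ⟨v, hv, h1⟩ := h.ex
  exact ⟨v, hv, h1.exists_fr h.inj h.rkb⟩

omit [Finite G] in
theorem gen {K : Subgroup G} [K.Normal] (hb : b ∈ K) : K = ⊤ :=
  top_le_iff.1 (h.sup.ge.trans (sup_le (h.com.ge.trans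
    ((commutator_mono le_rfl (zpowers_le.2 hb)).trans (commutator_le_right _ _))) (zpowers_le.2 hb)))

theorem elt (g : G) : ∃ r ∈ R, g = r ∨ g = r * b ∨ g = r * b * b := by
  haveI := h.nrm
  have hg : g ∈ (R ⊔ zpowers b : Subgroup G) := h.sup ▸ mem_top g
  obtain ⟨r, hr, k, hk, rfl⟩ := mem_sup_of_normal_left.1 hg
  obtain ⟨n, rfl⟩ := (Submonoid.mem_powers_iff _ _).1 (mem_powers_iff_mem_zpowers.2 hk)
  refine ⟨r, hr, ?_⟩
  have : b ^ 3 = 1 := by rw [pow_succ, sq, h.b3]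
  rw [← pow_mod_orderOf, ← Nat.mod_mod_of_dvd n (orderOf_dvd_of_pow_eq_one this), pow_mod_orderOf]
  have := Nat.mod_lt n three_pos
  generalize n % 3 = m at this
  interval_cases m <;> simp [sq, mul_assoc]

theorem eq_one_of_cube {r : G} (hr : r ∈ R) (h3 : r * r * r = 1) : r = 1 :=
  orderOf_eq_one_iff.1 (((Nat.dvd_prime Nat.prime_three).1 (orderOf_dvd_of_pow_eq_one
    (by rw [pow_succ, sq, h3]))).resolve_right fun e => h.cop (e ▸ R.orderOf_dvd_natCard hr))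

theorem comm_mem (g : G) : g * b * g⁻¹ * b⁻¹ ∈ R := by
  haveI := h.nrm
  obtain ⟨r, hr, rfl | rfl | rfl⟩ := h.elt g
  all_goals
    convert mul_mem hr (h.nrm.conj_mem _ (inv_mem hr) b) using 1
    group

theorem b_not_mem : b ∉ R := fun hb => by
  obtain ⟨v, -, h1⟩ := h.ex
  exact h1.ne_rot (by simp [h.eq_one_of_cube hb h.b3])

omit [Finite G] in
theorem U_le_F0 (g : G) : U ρ g ≤ F0 ρ R := by
  obtain ⟨v, hv, e, h1⟩ := h.fr
  have h2 := h.nrm.conj_mem v hv b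
  have h3 : b ∈ inU ρ (F0 ρ R) := h1.Ub (Jb3.U_le_F0 h2 (mem_U_of_neg h1.h2))
    (Jb3.U_le_F0 hv (mem_U_of_neg h1.tab.1)) (Jb3.U_le_F0 hv (mem_U_of_neg h1.tab.2.2.1))
  exact (h.sup.ge.trans (sup_le (F0_le.1 le_rfl) (zpowers_le.2 h3))) (mem_top g)

omit [Finite G] in
theorem inv_F0 (g : G) {x : E} (hx : x ∈ F0 ρ R) : ρ g x ∈ F0 ρ R := by
  simpa using add_mem (h.U_le_F0 g (mem_U g x)) hx

omit [Finite G] in
theorem mem_F0 (h1 : Fr ρ b v e) : e ∈ F0 ρ R := h.U_le_F0 _ (mem_U_of_neg h1.h2)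

theorem compl : IsCompl (F0 ρ R) (Representation.invariants (ρ.comp R.subtype)) := by
  classical
  haveI := Fintype.ofFinite R
  haveI : Invertible (Fintype.card R : ZMod 3) := invertibleOfNonzero (by
    rw [Ne, ZMod.natCast_eq_zero_iff, ← Nat.card_eq_fintype_card]; exact h.cop)
  have h1 := (Representation.isProj_averageMap (ρ.comp R.subtype)).isCompl.symm
  convert h1
  refine le_antisymm (F0_le.2 fun r hr => U_le.2 fun x => ?_) fun x hx => ?_
  · have := congrArg (fun a => Representation.asAlgebraHom (ρ.comp R.subtype) a x)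
      (GroupAlgebra.mul_average_right (ZMod 3) R ⟨r, hr⟩)
    simp only [map_mul, Module.End.mul_apply, Representation.asAlgebraHom_single_one] at this
    rw [LinearMap.mem_ker, map_sub, sub_eq_zero]
    exact this
  · have h2 : ∑ r : R, (ρ r x - x) ∈ F0 ρ R := Submodule.sum_mem _ fun r _ =>
      Jb3.U_le_F0 r.2 (mem_U _ x)
    have h3 : ⅟(Fintype.card R : ZMod 3) • ∑ r : R, ρ r x = 0 := by
      simpa [Representation.averageMap, GroupAlgebra.average] using hx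
    rw [Finset.sum_sub_distrib, (smul_eq_zero.1 h3).resolve_left (Invertible.ne_zero _),
      Finset.sum_const, Finset.card_univ, zero_sub, neg_mem_iff,
      ← Nat.cast_smul_eq_nsmul (ZMod 3)] at h2
    exact (Submodule.smul_mem_iff _ (Invertible.ne_zero _)).1 h2

omit [Finite G] in
theorem fix_of_inv {x : E} (hx : ∀ r ∈ R, ρ r x = x) (g : G) : ρ g x = x := by
  obtain ⟨v, hv, e, h1⟩ := h.fr
  have h3 : b ∈ fixes ρ {x} := by
    rintro _ rfl
    exact h1.c0 _ (hx v hv) (hx _ (h.nrm.conj_mem v hv b))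
  exact (h.sup.ge.trans (sup_le (fun r hr => by rintro _ rfl; exact hx r hr) (zpowers_le.2 h3)))
    (mem_top g) x rfl

theorem irr {N : Submodule (ZMod 3) E} (hN : N ≤ F0 ρ R) (hi : ∀ g, ∀ x ∈ N, ρ g x ∈ N) :
    N = ⊥ ∨ N = F0 ρ R := by
  obtain ⟨v, hv, e, h1⟩ := h.fr
  by_cases hb : b ∈ fixes ρ N
  · haveI : (fixes ρ N).Normal := ⟨fun k hk g x hx => by
      rw [mul_ap, mul_ap, hk _ (hi _ _ hx), ap_inv]⟩
    refine Or.inl (eq_bot_iff.2 fun x hx => h.compl.disjoint.le_bot ⟨hN hx, fun r => ?_⟩)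
    exact (h.gen hb).ge (mem_top r) x hx
  haveI : (inU ρ N).Normal := ⟨fun k hk g => by
    rw [mem_inU, U_conj]
    rintro _ ⟨x, hx, rfl⟩
    exact hi _ _ (hk hx)⟩
  suffices he : e ∈ N from Or.inr (le_antisymm hN (F0_le.2 (le_top.trans
    (h.gen (h1.Ub he (hi _ _ he) (hi _ _ (hi _ _ he)))).ge)))
  by_contra he
  refine hb fun x hx => ?_
  have key : ∀ x ∈ N, ∀ (x₀ : E) (c₁ c₂ c₃ : ZMod 3), x = x₀ + c₁ • e + c₂ • ρ b e +
      c₃ • ρ b (ρ b e) → ρ v x₀ = x₀ → ρ (b * v * b⁻¹) x₀ = x₀ → c₁ = 0 := by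
    rintro _ hx x₀ c₁ c₂ c₃ rfl a1 a2
    by_contra hc
    refine he ((Submodule.smul_mem_iff _ hc).1 ?_)
    have := N.sub_mem (N.add_mem hx (hi v _ hx)) (hi (b * v * b⁻¹) _ (N.add_mem hx (hi v _ hx)))
    simp only [map_add, map_smul, map_neg, a1, a2, h1.h1, h1.h2, h1.tab, smul_neg] at this
    convert this using 1
    linear_combination (norm := abel) - t3 (c₁ • e)
  obtain ⟨x₀, c₁, c₂, c₃, rfl, a1, a2⟩ := h1.dec x
  have b0 := h1.c0 x₀ a1 a2
  have b1 := key _ hx _ _ _ _ rfl a1 a2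
  have b3 := key _ (hi b _ hx) x₀ c₃ c₁ c₂ (by
    simp only [map_add, map_smul, b0, h1.bbb]; abel) a1 a2
  have b2 := key _ (hi b _ (hi b _ hx)) x₀ c₂ c₃ c₁ (by
    simp only [map_add, map_smul, b0, h1.bbb]; abel) a1 a2
  simp [b0, b1, b2, b3]

theorem faith {g : G} (hg : ∀ x ∈ F0 ρ R, ρ g x = x) : g = 1 := h.inj (LinearMap.ext fun x => by
  obtain ⟨y, hy, z, hz, rfl⟩ := Submodule.mem_sup.1 (h.compl.sup_eq_top.ge (Submodule.mem_top (x := x)))
  rw [map_add, hg y hy, h.fix_of_inv (fun r hr => hz ⟨r, hr⟩), one_ap])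

theorem cen {g : G} (hg : g ∈ center G) : g = 1 ∨ ∀ x ∈ F0 ρ R, ρ g x = -x := by
  obtain ⟨v, hv, e, h1⟩ := h.fr
  have hc := mem_center_iff.1 hg
  obtain ⟨c, hc'⟩ := h1.l1 (ρ g e) (by rw [← mul_ap, hc, mul_ap, h1.h1])
    (by rw [← mul_ap, hc, mul_ap, h1.h2, map_neg])
  have h2 := (h.irr (N := F0 ρ R ⊓ LinearMap.ker (ρ g - c • 1)) inf_le_left fun k x hx =>
    ⟨h.inv_F0 k hx.1, by
      have : ρ g x = c • x := sub_eq_zero.1 hx.2
      change ρ g (ρ k x) - c • ρ k x = 0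
      rw [← mul_ap, ← hc, mul_ap, this, map_smul, sub_self]⟩).resolve_left fun e' => h1.e0
    (e'.le ⟨h.mem_F0 h1, LinearMap.mem_ker.2 (sub_eq_zero.2 hc')⟩)
  have h3 : ∀ x ∈ F0 ρ R, ρ g x = c • x := fun x hx => sub_eq_zero.1 (h2.ge hx).2
  rcases (by decide : ∀ c : ZMod 3, c = 0 ∨ c = 1 ∨ c = -1) c with rfl | rfl | rfl
  · exact absurd (ap_zero (hc'.trans (zero_smul _ _))) h1.e0
  · exact Or.inl (h.faith fun x hx => by rw [h3 x hx, one_smul])
  · exact Or.inr fun x hx => by rw [h3 x hx, neg_smul, one_smul]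

theorem cen_sq {g : G} (hg : g ∈ center G) : g * g = 1 := by
  rcases h.cen hg with rfl | h1
  · exact one_mul 1
  · exact h.faith fun x hx => by rw [mul_ap, h1 x hx, map_neg, h1 x hx, neg_neg]

theorem cen_eq {g k : G} (hg : g ∈ center G) (hk : k ∈ center G) (h1 : g ≠ 1) (h2 : k ≠ 1) :
    g = k := mul_inv_eq_one.1 (h.faith fun x hx => by
  rw [mul_ap, (h.cen (inv_mem hk)).resolve_left (inv_ne_one.2 h2) x hx, map_neg,
    (h.cen hg).resolve_left h1 x hx, neg_neg])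

theorem cen_rk {g : G} (hg : g ∈ center G) (h1 : g ≠ 1) {W : Submodule (ZMod 3) E}
    (hW : U ρ g ≤ W) : F0 ρ R ≤ W :=
  fun x hx => hW (mem_U_of_neg ((h.cen hg).resolve_left h1 x hx))

omit [Finite G] in
theorem le_center {Y : Subgroup G} [Y.Normal] (hY : b ∈ 𝐂(Y)) : Y ≤ center G := fun y hy =>
  mem_center_iff.2 fun g => (mem_cent.1 ((h.gen hY).ge (mem_top g)) y hy).symm

theorem eq_bot {Y : Subgroup G} [Y.Normal] (hY : (Nat.card Y).Coprime 6) : Y = ⊥ := by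
  obtain ⟨v, hv, e, h1⟩ := h.fr
  refine eq_bot_iff.2 fun y hy => orderOf_eq_one_iff.1 (Nat.eq_one_of_dvd_coprimes hY
    (Y.orderOf_dvd_natCard hy) ((orderOf_dvd_of_pow_eq_one (n := 2) ?_).trans (by decide)))
  rw [sq, h.cen_sq (h.le_center (h1.cent h.inj h.rkb hY) hy)]

end St

end Cfsg.Lib.Jb3
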